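import Cfsg.Agent.H197.Cls.DisW

/-!
# S2451, helper772: the strong form of Lemma Y

* `strongY` : `v ∈ Dis Δ a b`, `s_i v ≠ v s_i`: neither `s_i v` nor `v s_i` is a displacement of `a⁻¹` or of `b`;
* `step_up`, `step_down`, `step_comm` : the displacements on a panel.
-/

set_option autoImplicit false
set_option linter.unusedSectionVars false

open scoped Pointwise

namespace Cfsg.Agent.H772.Cls

open Cfsg.Agent.Tits.Core Cfsg.Agent.Tits.Core.Bldg Cfsg.Agent.Tits.Exchange Cfsg.Agent.Tits Cfsg.Agent.FixBN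
open Cfsg.Agent.H197.Cls

variable {I : Type*} {M : CoxeterMatrix I} {W : Type*} [Group W] {cs : CoxeterSystem M W} {C : Type*}

local prefix:100 "ℓ" => cs.length

variable {Δ : Bldg cs C} {G : Type*} [Group G] [MulAction G C] {p : ℕ} (S : Sys Δ G p)

theorem dis_inv {a b : G} : Dis Δ b⁻¹ a⁻¹ = Dis Δ a b := by
  ext w
  constructor
  · rintro ⟨h1, h2⟩
    rw [inv_inv] at h1
    exact ⟨h2, h1⟩
  · rintro ⟨h1, h2⟩
    refine ⟨?_, h1⟩
    rw [inv_inv]
    exact h2

include S

variable [hp : Fact p.Prime] [F : OppRes.Cox cs] [Finite C]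

theorem strongY_aux (hth : Δ.Thick) {a b : G} (hab : Good p a b) {v : W} (hv : v ∈ Dis Δ a b) {i : I}
    (hne : cs.simple i * v ≠ v * cs.simple i) (hL : ℓ v < ℓ (cs.simple i * v)) (hR : ℓ v < ℓ (v * cs.simple i)) (c : C) :
    Δ.δ c (b • c) ≠ cs.simple i * v ∧ Δ.δ c (b • c) ≠ v * cs.simple i := by
  obtain ⟨⟨c0, hc0⟩, -⟩ := hv
  have hnp : NP Δ i c0 (a⁻¹ • c0) := ⟨by rw [hc0]; exact hL, by rw [hc0]; exact hR, by rw [hc0]; exact hne⟩
  have l1 := cs.length_simple_mul v i
  have l2 := cs.length_mul_simple v i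
  have ha : a • a⁻¹ • c0 ∈ Δ.Pan i c0 := by rw [smul_inv_smul]; exact Δ.self_mem_Pan i _
  constructor
  · intro h
    obtain ⟨x1, hx1, hx1'⟩ := Δ.exists_between h (by rw [cs.length_simple]; omega)
    obtain ⟨g, hg1, hg2⟩ := exists_smul_pair S hth (x := x1) (y := b • c) (x' := c0) (y' := a⁻¹ • c0)
      (by rw [hx1', hc0])
    have hb : (g * b * g⁻¹) • c0 ∈ Δ.Pan i (a⁻¹ • c0) := by
      rw [mul_smul, mul_smul, ← hg1, inv_smul_smul, hg1, ← hg2]
      exact smul_mem_Pan S (smul_mem_Pan S (Δ.mem_Pan_of_δ hx1))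
    have h1 := (lemY S hth (hab.conjR g) hnp hb ha).2
    rw [mul_smul, mul_smul, ← hg1, inv_smul_smul, hg1, ← hg2] at h1
    have h2 : x1 = c := smul_left_cancel b (smul_left_cancel g h1)
    rw [h2, Δ.δ_self] at hx1
    have := congrArg cs.length hx1
    rw [cs.length_one, cs.length_simple] at this
    omega
  · intro h
    obtain ⟨y1, hy1, hy1'⟩ := Δ.exists_between h (by rw [cs.length_simple]; omega)
    obtain ⟨g, hg1, hg2⟩ := exists_smul_pair S hth (x := c) (y := y1) (x' := c0) (y' := a⁻¹ • c0)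
      (by rw [hy1, hc0])
    have hb : (g * b * g⁻¹) • c0 ∈ Δ.Pan i (a⁻¹ • c0) := by
      rw [mul_smul, mul_smul, ← hg1, inv_smul_smul, hg1, ← hg2]
      exact smul_mem_Pan S (Δ.mem_Pan_of_δ hy1')
    have h1 := (lemY S hth (hab.conjR g) hnp hb ha).2
    rw [mul_smul, mul_smul, ← hg1, inv_smul_smul, hg1, ← hg2] at h1
    have h2 : b • c = y1 := smul_left_cancel g h1
    rw [h2, Δ.δ_self] at hy1'
    have := congrArg cs.length hy1'
    rw [cs.length_one, cs.length_simple] at this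
    omega

/-- **Lemma Y, strong form.** -/
theorem strongY (hth : Δ.Thick) {a b : G} (hab : Good p a b) {v : W} (hv : v ∈ Dis Δ a b) {i : I}
    (hne : cs.simple i * v ≠ v * cs.simple i) (c : C) :
    Δ.δ c (b • c) ≠ cs.simple i * v ∧ Δ.δ c (b • c) ≠ v * cs.simple i := by
  have hss : cs.simple i * cs.simple i = 1 := cs.simple_mul_simple_self i
  obtain ⟨hmem, ⟨-, h2, h3⟩ | ⟨h1, h2, h3⟩⟩ := dis_simple S hth hab hv hne
  · exact strongY_aux S hth hab hv hne h2 h3 c
  · have e1 : cs.simple i * (cs.simple i * v * cs.simple i) = v * cs.simple i := by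
      rw [← mul_assoc, ← mul_assoc, hss, one_mul]
    have e2 : cs.simple i * v * cs.simple i * cs.simple i = cs.simple i * v := by
      rw [mul_assoc, hss, mul_one]
    have h4 := strongY_aux S hth hab hmem (i := i) (by rw [e1, e2]; exact hne.symm)
      (by rw [e1]; have := cs.length_mul_simple v i; omega) (by rw [e2]; have := cs.length_simple_mul v i; omega) c
    rw [e1, e2] at h4
    exact h4.symm

/-- **Lemma Y, strong form**, for `a⁻¹`. -/
theorem strongY' (hth : Δ.Thick) {a b : G} (hab : Good p a b) {v : W} (hv : v ∈ Dis Δ a b) {i : I}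
    (hne : cs.simple i * v ≠ v * cs.simple i) (c : C) :
    Δ.δ c (a⁻¹ • c) ≠ cs.simple i * v ∧ Δ.δ c (a⁻¹ • c) ≠ v * cs.simple i :=
  strongY S hth hab.inv (by rw [dis_inv]; exact hv) hne c

omit hp F in
/-- the other chambers of a panel, position `v < s_i v s_i` -/
theorem step_up {x : G} {v : W} {i : I} (hne : cs.simple i * v ≠ v * cs.simple i) (hL : ℓ v < ℓ (cs.simple i * v))
    (hR : ℓ v < ℓ (v * cs.simple i)) {c c' : C} (hc : Δ.δ c (x • c) = v) (hc' : Δ.δ c c' = cs.simple i) :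
    Δ.δ c' (x • c') = cs.simple i * v * cs.simple i := by
  have hnp : NP Δ i c (x • c) := ⟨by rw [hc]; exact hL, by rw [hc]; exact hR, by rw [hc]; exact hne⟩
  have hn : c' ≠ c := (Δ.ne_of_δ_simple hc').symm
  rw [hnp.dLR (Δ.mem_Pan_of_δ hc') hn (smul_mem_Pan S (Δ.mem_Pan_of_δ hc')) (fun h => hn (smul_left_cancel x h)), hc]

omit hp F in
/-- the gate chamber of a panel, position `s_i v s_i > v` -/
theorem step_down {x : G} {v : W} {i : I} (hne : cs.simple i * v ≠ v * cs.simple i) (hL : ℓ v < ℓ (cs.simple i * v))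
    (hR : ℓ v < ℓ (v * cs.simple i)) (hY : ∀ c, Δ.δ c (x • c) ≠ v * cs.simple i) {c : C}
    (hc : Δ.δ c (x • c) = cs.simple i * v * cs.simple i) : ∃ c', Δ.δ c c' = cs.simple i ∧ Δ.δ c' (x • c') = v := by
  have l1 := cs.length_simple_mul v i
  have l2 := cs.length_mul_simple v i
  have l3 : ℓ (cs.simple i * v * cs.simple i) = ℓ v + 2 := by
    rcases fold cs (w := v) (i := i) (j := i) (by omega) (by omega) with h | h
    · exact h
    · exact absurd h hne
  obtain ⟨x0, hx0, hx0'⟩ := Δ.exists_between (v := cs.simple i) (w := v * cs.simple i)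
    (by rw [hc, mul_assoc]) (by rw [← mul_assoc, l3, cs.length_simple]; omega)
  obtain ⟨y0, hy0, hy0'⟩ := Δ.exists_between hx0' (by rw [cs.length_simple]; omega)
  have hnp : NP Δ i x0 y0 := ⟨by rw [hy0]; exact hL, by rw [hy0]; exact hR, by rw [hy0]; exact hne⟩
  refine ⟨x0, hx0, ?_⟩
  have h1 : x • x0 ∈ Δ.Pan i y0 := Δ.mem_Pan_trans (Δ.mem_Pan_of_δ hy0') (smul_mem_Pan S (Δ.mem_Pan_of_δ hx0))
  by_cases h2 : x • x0 = y0
  · rw [h2, hy0]
  · exfalso
    apply hY x0
    rw [hnp.dR h1 h2, hy0]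

omit hp F in
/-- the displacements on a panel at a commuting position -/
theorem step_comm {x : G} {v : W} {i : I} (hcm : cs.simple i * v = v * cs.simple i) {c c' : C}
    (hc : Δ.δ c (x • c) = v) (hc' : c' ∈ Δ.Pan i c) : Δ.δ c' (x • c') = v ∨ Δ.δ c' (x • c') = v * cs.simple i := by
  rcases hc' with rfl | hc'
  · left; exact hc
  have hss : cs.simple i * cs.simple i = 1 := cs.simple_mul_simple_self i
  have h1 : Δ.δ c' (x • c) = v ∨ Δ.δ c' (x • c) = v * cs.simple i := by
    rcases Δ.step_left (z := x • c) (Δ.δ_symm_simple hc') with h | h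
    · right; rw [h, hc, hcm]
    · left; rw [h, hc]
  have h2 : Δ.δ (x • c) (x • c') = cs.simple i := by rw [S.iso, hc']
  rcases Δ.step c' (x • c) (x • c') i h2 with h | h
  · rcases h1 with h3 | h3
    · right; rw [h, h3]
    · left; rw [h, h3, mul_assoc, hss, mul_one]
  · rcases h1 with h3 | h3
    · left; rw [h, h3]
    · right; rw [h, h3]

end Cfsg.Agent.H772.Cls
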