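import Cfsg.Agent.H772.Cls.Psi
import Cfsg.Agent.H772.Cls.StrongY

/-!
# S2451, helper772: two nodes with `m(i, j) = 3` commuting with an element of `Dis`

`star_c` : `v ∈ Dis Δ a b`, `m(i, j) = 3`, `s_i` and `s_j` commute with `v` and are descents: then `v s_i ∈ Dis Δ a b`.
(A correlation of a finite projective plane has an absolute flag.)
-/

set_option autoImplicit false
set_option linter.unusedSectionVars false

open scoped Pointwise

namespace Cfsg.Agent.H772.Cls

open Cfsg.Agent.Tits.Core Cfsg.Agent.Tits.Core.Bldg Cfsg.Agent.Tits.Exchange Cfsg.Agent.Tits Cfsg.Agent.FixBN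
open Cfsg.Agent.FixBN.Cox
open Cfsg.Agent.H197.Cls

variable {I : Type*} {M : CoxeterMatrix I} {W : Type*} [Group W] {cs : CoxeterSystem M W} {C : Type*}

local prefix:100 "ℓ" => cs.length

theorem wJ_m3 [F : OppRes.Cox cs] {i j : I} (hM : M i j = 3) :
    wJ cs {i, j} = cs.simple i * cs.simple j * cs.simple i := by
  have hM' : M j i = 3 := by rw [M.symmetric]; exact hM
  obtain ⟨l2, l3, hb, hij⟩ := len_jij (cs := cs) hM
  obtain ⟨l2', l3', hb', -⟩ := len_jij (cs := cs) hM'
  symm
  refine F.eq_wJ_of_descents ?_ ?_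
  · exact mul_mem (mul_mem (simple_mem_WJ cs (by simp)) (simple_mem_WJ cs (by simp))) (simple_mem_WJ cs (by simp))
  · rintro k (rfl | rfl)
    · rw [mul_assoc, cs.simple_mul_simple_self, mul_one, l2', l3']
      omega
    · rw [hb', mul_assoc, cs.simple_mul_simple_self, mul_one, l2, l3]
      omega

variable {Δ : Bldg cs C} {G : Type*} [Group G] [MulAction G C] {p : ℕ} (S : Sys Δ G p)

include S

/-- a correlation -/
theorem corr [hp : Fact p.Prime] [F : OppRes.Cox cs] [Finite C] (hth : Δ.Thick) {i j : I} (hM : M i j = 3) {m : W}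
    (h : Par cs {i, j} {i, j} m) (hmi : m * cs.simple i = cs.simple j * m) (hmj : m * cs.simple j = cs.simple i * m)
    {c c' : C} (hcc : Δ.δ c c' = m) {x : G} (hx : x • c ∈ Δ.Res {i, j} c') :
    ∃ D ∈ Δ.Res {i, j} c, Δ.δ D (x • D) = cs.simple j * cs.simple i * m := by
  classical
  have hM' : M j i = 3 := by rw [M.symmetric]; exact hM
  have hij : i ≠ j := (len_jij (cs := cs) hM).2.2.2
  have hP := isPl (Δ := Δ) S hth hM c
  obtain ⟨k, hk0, hk⟩ := exists_card_Pan S hth i
  set ψ : C → C := psi Δ {i, j} c x with hψ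
  have hR : ∀ D ∈ Δ.Res {i, j} c, ψ D ∈ Δ.Res {i, j} c := fun D _ => psi_mem D
  have hiso : ∀ D ∈ Δ.Res {i, j} c, ∀ E ∈ Δ.Res {i, j} c, Δ.δ (ψ D) (ψ E) * m = m * Δ.δ D E :=
    fun D hD E hE => psi_iso S h hcc hx hD hE
  have hinj : ∀ D ∈ Δ.Res {i, j} c, ∀ E ∈ Δ.Res {i, j} c, ψ D = ψ E → D = E := by
    intro D hD E hE he
    have h3 := hiso D hD E hE
    rw [he, Δ.δ_self, one_mul] at h3
    exact Δ.eq_of_δ_eq_one (mul_left_cancel (h3.symm.trans (mul_one m).symm))
  have hPj : ∀ D ∈ Δ.Res {i, j} c, ψ '' Δ.Pan j D = Δ.Pan i (ψ D) := fun D hD =>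
    image_Pan hR (by simp) (by simp) hinj (fun D hD E hE => by
      have h3 := hiso D hD E hE
      constructor
      · intro h4
        rw [h4, hmj] at h3
        exact mul_right_cancel h3
      · intro h4
        rw [h4, ← hmj] at h3
        exact (mul_left_cancel h3).symm) hD
  have hPi : ∀ D ∈ Δ.Res {i, j} c, ψ '' Δ.Pan i D = Δ.Pan j (ψ D) := fun D hD =>
    image_Pan hR (by simp) (by simp) hinj (fun D hD E hE => by
      have h3 := hiso D hD E hE
      constructor
      · intro h4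
        rw [h4, hmi] at h3
        exact mul_right_cancel h3
      · intro h4
        rw [h4, ← hmi] at h3
        exact (mul_left_cancel h3).symm) hD
  let ρ : Pt Δ i j c → Ln Δ i j c := fun s => ⟨ψ '' s.1, by
    obtain ⟨s, D, hD, rfl⟩ := s
    exact ⟨ψ D, hR D hD, hPj D hD⟩⟩
  let ρ' : Ln Δ i j c → Pt Δ i j c := fun s => ⟨ψ '' s.1, by
    obtain ⟨s, D, hD, rfl⟩ := s
    exact ⟨ψ D, hR D hD, hPi D hD⟩⟩
  have hc0 : c ∈ Δ.Res {i, j} c := Δ.self_mem_Res _ _
  have hfin := Fintype.ofFinite (Pt Δ i j c)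
  have hne : Nonempty (Pt Δ i j c) := ⟨mkPt hc0⟩
  obtain ⟨s, A, hAs, hAρ⟩ := exists_absolute (p := p) (Inc Δ i j c) (fun l l' => by
    by_cases hll : l = l'
    · subst hll
      have h1 : (Finset.univ.filter (fun y => Inc Δ i j c y l ∧ Inc Δ i j c y l)).card = p ^ k + 1 := by
        obtain ⟨D, hD⟩ := l.exists_mem
        have h2 := card_line hij l
        rw [l.eq hD, hk D, Nat.card_eq_fintype_card, Fintype.card_subtype] at h2
        rw [← h2]
        congr 1
        ext y
        simp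
      rw [h1]
      push_cast
      rw [ZMod.natCast_self, zero_pow hk0.ne', zero_add]
    · have h1 : (Finset.univ.filter (fun y => Inc Δ i j c y l ∧ Inc Δ i j c y l')).card = 1 := by
        obtain ⟨y, hy, hy'⟩ := hP.meet l l'
        rw [Finset.card_eq_one]
        refine ⟨y, ?_⟩
        ext z
        rw [Finset.mem_filter, Finset.mem_singleton]
        constructor
        · rintro ⟨-, hz, hz'⟩
          rcases hP.uniq hz hy hz' hy' with h3 | h3
          · exact h3
          · exact absurd h3 hll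
        · rintro rfl
          exact ⟨Finset.mem_univ _, hy, hy'⟩
      rw [h1, Nat.cast_one]) ρ ρ' (by
    intro s
    obtain ⟨E, hE⟩ := s.exists_mem
    obtain ⟨D, hD, rfl⟩ := image_surj hR hinj (s.mem_Res hE)
    exact ⟨mkLn hD, Pt.ext' (x := ψ D) ⟨D, Δ.self_mem_Pan i D, rfl⟩ hE⟩) (by
    intro s l
    constructor
    · rintro ⟨D, hD, hDl⟩
      exact ⟨ψ D, ⟨D, hDl, rfl⟩, ⟨D, hD, rfl⟩⟩
    · rintro ⟨_, ⟨D, hDl, rfl⟩, ⟨D', hD', he⟩⟩
      have h3 := hinj D' (s.mem_Res hD') D (l.mem_Res hDl) he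
      rw [h3] at hD'
      exact ⟨D, hD', hDl⟩)
  have hAR := s.mem_Res hAs
  have hA' : ψ A ∈ Δ.Pan i A := by
    have h1 : A ∈ ψ '' s.1 := hAρ
    rw [s.eq hAs, hPj A hAR] at h1
    exact Δ.mem_Pan_symm h1
  obtain ⟨A0, hA0, hA0'⟩ := image_surj hR hinj hAR
  obtain ⟨D, hD, hDA, hDA0⟩ := hth.exists_third (i := j) (x := A) A A0
  have hDR : D ∈ Δ.Res {i, j} c := Δ.mem_Res_trans hAR (Δ.Pan_subset_Res (by simp) A hD)
  refine ⟨D, hDR, ?_⟩
  rw [disp_eq S h hcc hx hDR]
  congr 1
  have e1 : Δ.δ D A = cs.simple j := Δ.δ_eq_of_mem_Pan hD (Δ.self_mem_Pan j A) hDA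
  have e2 : Δ.δ A (ψ D) = cs.simple i := by
    have h1 : ψ D ∈ Δ.Pan i (ψ A) := by
      rw [← hPj A hAR]
      exact ⟨D, hD, rfl⟩
    rw [Δ.Pan_eq_of_mem hA'] at h1
    refine Δ.δ_eq_of_mem_Pan (Δ.self_mem_Pan i A) h1 ?_
    intro h2
    rw [← hA0'] at h2
    exact hDA0 (hinj _ hA0 _ hDR h2).symm
  exact Δ.δ_mul_of e1 e2 (by rw [len_ij hM', cs.length_simple, cs.length_simple])

/-- the displacement `v s_i`, in the residue of a chamber with displacement `v` -/
theorem corr_loc [hp : Fact p.Prime] [F : OppRes.Cox cs] [Finite C] (hth : Δ.Thick) {i j : I} (hM : M i j = 3) {v : W}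
    (hi : cs.simple i * v = v * cs.simple i) (hj : cs.simple j * v = v * cs.simple j)
    (hil : ℓ (v * cs.simple i) < ℓ v) (hjl : ℓ (v * cs.simple j) < ℓ v) {x : G} {c : C}
    (hc : Δ.δ c (x • c) = v) : ∃ D ∈ Δ.Res {i, j} c, Δ.δ D (x • D) = v * cs.simple i := by
  have hM' : M j i = 3 := by rw [M.symmetric]; exact hM
  obtain ⟨l2, l3, hb, hij⟩ := len_jij (cs := cs) hM
  obtain ⟨l2', l3', hb', -⟩ := len_jij (cs := cs) hM'
  have hw := wJ_m3 (cs := cs) hM
  have hss : ∀ k, cs.simple k * cs.simple k = 1 := cs.simple_mul_simple_self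
  obtain ⟨u, hu, m, hv, hm⟩ := exists_isMinL cs {i, j} v
  have hu' : u = wJ cs {i, j} := by
    have h1 : u⁻¹ = wJ cs {i, j} := by
      refine F.eq_wJ_of_descents (inv_mem hu) fun k hk => ?_
      have h2 : ℓ (cs.simple k * v) < ℓ v := by
        rcases hk with rfl | rfl
        · rw [hi]; exact hil
        · rw [hj]; exact hjl
      rw [hv, ← mul_assoc, hm _ (mul_mem (simple_mem_WJ cs hk) hu), hm _ hu] at h2
      have h3 := cs.length_inv (cs.simple k * u)
      rw [mul_inv_rev, cs.inv_simple] at h3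
      rw [h3, cs.length_inv]
      omega
    rw [← F.wJ_inv, ← h1, inv_inv]
  have hwm : cs.simple i * cs.simple j * cs.simple i * m = v := by rw [hv, hu', hw]
  have hmv : m = cs.simple i * cs.simple j * cs.simple i * v := by
    have h1 : (cs.simple i * cs.simple j * cs.simple i) * (cs.simple i * cs.simple j * cs.simple i) = 1 := by
      rw [← hw]; exact F.wJ_mul_self _
    rw [← hwm, ← mul_assoc, h1, one_mul]
  have hmi : m * cs.simple i = cs.simple j * m := by
    rw [hmv]
    calc cs.simple i * cs.simple j * cs.simple i * v * cs.simple i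
        = cs.simple i * cs.simple j * cs.simple i * (v * cs.simple i) := by group
      _ = cs.simple i * cs.simple j * cs.simple i * (cs.simple i * v) := by rw [hi]
      _ = cs.simple i * cs.simple j * (cs.simple i * cs.simple i) * v := by group
      _ = (cs.simple j * cs.simple j) * cs.simple i * cs.simple j * v := by rw [hss, hss]; group
      _ = cs.simple j * (cs.simple j * cs.simple i * cs.simple j) * v := by group
      _ = cs.simple j * (cs.simple i * cs.simple j * cs.simple i * v) := by rw [hb]; group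
  have hmj : m * cs.simple j = cs.simple i * m := by
    rw [hmv]
    calc cs.simple i * cs.simple j * cs.simple i * v * cs.simple j
        = cs.simple i * cs.simple j * cs.simple i * (v * cs.simple j) := by group
      _ = (cs.simple i * cs.simple j * cs.simple i) * cs.simple j * v := by rw [← hj]; group
      _ = (cs.simple j * cs.simple i * cs.simple j) * cs.simple j * v := by rw [← hb]
      _ = cs.simple j * cs.simple i * (cs.simple j * cs.simple j) * v := by group
      _ = (cs.simple i * cs.simple i) * cs.simple j * cs.simple i * v := by rw [hss, hss]; group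
      _ = cs.simple i * (cs.simple i * cs.simple j * cs.simple i * v) := by group
  have hlm : ∀ k ∈ ({i, j} : Set I), ℓ m < ℓ (cs.simple k * m) := (isMinL_iff cs).1 hm
  have h : Par cs {i, j} {i, j} m := by
    refine ⟨?_, ?_, hm, (isMinR_iff cs).2 ?_⟩
    · rintro k (rfl | rfl)
      · exact ⟨j, by simp, hmi⟩
      · exact ⟨i, by simp, hmj⟩
    · rintro k (rfl | rfl)
      · exact ⟨j, by simp, hmj.symm⟩
      · exact ⟨i, by simp, hmi.symm⟩
    · rintro k (rfl | rfl)
      · rw [hmi]; exact hlm _ (by simp)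
      · rw [hmj]; exact hlm _ (by simp)
  have h1 : Δ.δ c (x • c) = m * (cs.simple i * cs.simple j * cs.simple i) := by
    rw [hc, ← hwm, ← hw, h.longest]
  obtain ⟨c', hcc, hc'⟩ := Δ.exists_between h1 (h.minR _ (by rw [← hw]; exact F.wJ_mem _))
  obtain ⟨D, hDR, hD⟩ := corr S hth hM h hmi hmj hcc (x := x) (by
    rw [Bldg.mem_Res, hc', ← hw]
    exact F.wJ_mem _)
  refine ⟨D, hDR, ?_⟩
  rw [hD, ← hi, hmv]
  calc cs.simple j * cs.simple i * (cs.simple i * cs.simple j * cs.simple i * v)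
      = cs.simple j * (cs.simple i * cs.simple i) * cs.simple j * cs.simple i * v := by group
    _ = (cs.simple j * cs.simple j) * cs.simple i * v := by rw [hss]; group
    _ = cs.simple i * v := by rw [hss, one_mul]

/-- the displacement `v s_i` -/
theorem corr' [hp : Fact p.Prime] [F : OppRes.Cox cs] [Finite C] (hth : Δ.Thick) {i j : I} (hM : M i j = 3) {v : W}
    (hi : cs.simple i * v = v * cs.simple i) (hj : cs.simple j * v = v * cs.simple j)
    (hil : ℓ (v * cs.simple i) < ℓ v) (hjl : ℓ (v * cs.simple j) < ℓ v) {x : G} (hx : ∃ c, Δ.δ c (x • c) = v) :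
    ∃ D, Δ.δ D (x • D) = v * cs.simple i := by
  obtain ⟨c, hc⟩ := hx
  obtain ⟨D, -, hD⟩ := corr_loc S hth hM hi hj hil hjl hc
  exact ⟨D, hD⟩

/-- **Two nodes.** -/
theorem star_c [hp : Fact p.Prime] [F : OppRes.Cox cs] [Finite C] (hth : Δ.Thick) {a b : G} {i j : I}
    (hM : M i j = 3) {v : W} (hv : v ∈ Dis Δ a b) (hi : cs.simple i * v = v * cs.simple i)
    (hj : cs.simple j * v = v * cs.simple j) (hil : ℓ (v * cs.simple i) < ℓ v) (hjl : ℓ (v * cs.simple j) < ℓ v) :
    v * cs.simple i ∈ Dis Δ a b :=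
  ⟨corr' S hth hM hi hj hil hjl hv.1, corr' S hth hM hi hj hil hjl hv.2⟩

end Cfsg.Agent.H772.Cls
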