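import Cfsg.Agent.H772.Cls.Psi
import Cfsg.Agent.H772.Cls.StrongY

/-!
# S2451, helper772: the `A₂`-star

`star_d` : if `m(i, j) = 3`, `u` commutes with `s_i` and `s_j` and is minimal, then `u s_i` is not in `Dis Δ a b`.
In particular (`u = 1`) no simple reflection `s_i` is in `Dis Δ a b` if `m(i, j) = 3` for some `j`.
-/

set_option autoImplicit false
set_option linter.unusedSectionVars false

open scoped Pointwise

namespace Cfsg.Agent.H772.Cls

open Cfsg.Agent.Tits.Core Cfsg.Agent.Tits.Core.Bldg Cfsg.Agent.Tits.Exchange Cfsg.Agent.Tits Cfsg.Agent.FixBN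
open Cfsg.Agent.FixBN.Cox
open Cfsg.Agent.H197.Cls

variable {I : Type*} {M : CoxeterMatrix I} {W : Type*} [Group W] {cs : CoxeterSystem M W} {C : Type*}

local prefix:100 "ℓ" => cs.length

theorem par_of_comm {K : Set I} {u : W} (h : ∀ k ∈ K, cs.simple k * u = u * cs.simple k)
    (hl : ∀ k ∈ K, ℓ u < ℓ (u * cs.simple k)) : Par cs K K u :=
  ⟨fun k hk => ⟨k, hk, (h k hk).symm⟩, fun k hk => ⟨k, hk, h k hk⟩,
    (isMinL_iff cs).2 fun k hk => by rw [h k hk]; exact hl k hk, (isMinR_iff cs).2 hl⟩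

theorem comm_of_mem {K : Set I} {u : W} (h : ∀ k ∈ K, cs.simple k * u = u * cs.simple k) {w : W} (hw : w ∈ WJ cs K) :
    w * u = u * w := by
  rw [WJ] at hw
  induction hw using Subgroup.closure_induction with
  | mem x hx =>
    obtain ⟨k, hk, rfl⟩ := hx
    exact h k hk
  | one => rw [one_mul, mul_one]
  | mul x y _ _ hx hy => rw [mul_assoc, hy, ← mul_assoc, hx, mul_assoc]
  | inv x _ hx =>
    have h1 : Commute x u := hx
    exact h1.inv_left

variable {Δ : Bldg cs C} {G : Type*} [Group G] [MulAction G C] {p : ℕ} (S : Sys Δ G p)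

include S

/-- strong transitivity of the stabiliser of two parallel residues -/
theorem exists_smul_res [F : OppRes.Cox cs] (hth : Δ.Thick) {K : Set I} {u : W} (h : Par cs K K u) {c c' : C}
    (hcc : Δ.δ c c' = u) {D E D1 E1 : C} (hD : D ∈ Δ.Res K c) (hE : E ∈ Δ.Res K c) (hD1 : D1 ∈ Δ.Res K c)
    (hE1 : E1 ∈ Δ.Res K c) (he : Δ.δ D E = Δ.δ D1 E1) :
    ∃ g : G, g • Δ.Res K c = Δ.Res K c ∧ g • Δ.Res K c' = Δ.Res K c' ∧ g • D = D1 ∧ g • E = E1 := by
  obtain ⟨E', hE', hE2⟩ := exists_par h hcc hE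
  obtain ⟨E1', hE1', hE3⟩ := exists_par h hcc hE1
  have e1 : Δ.δ D E' = Δ.δ D E * u := Δ.δ_mul_of rfl hE2 (h.minL _ (Δ.δ_mem_of_mem_Res hD hE))
  have e2 : Δ.δ D1 E1' = Δ.δ D1 E1 * u := Δ.δ_mul_of rfl hE3 (h.minL _ (Δ.δ_mem_of_mem_Res hD1 hE1))
  obtain ⟨g, hg1, hg2⟩ := exists_smul_pair S hth (x := D) (y := E') (x' := D1) (y' := E1') (by rw [e1, e2, he])
  have r1 : g • Δ.Res K c = Δ.Res K c := by
    rw [← Δ.Res_eq_of_mem hD, S.smul_Res, hg1, Δ.Res_eq_of_mem hD1, Δ.Res_eq_of_mem hD]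
  have r2 : g • Δ.Res K c' = Δ.Res K c' := by
    rw [← Δ.Res_eq_of_mem hE', S.smul_Res, hg2, Δ.Res_eq_of_mem hE1', Δ.Res_eq_of_mem hE']
  refine ⟨g, r1, r2, hg1, ?_⟩
  have h3 : Δ.δ (g • E) E1' = u := by rw [← hg2, S.iso, hE2]
  have h4 : g • E ∈ Δ.Res K c := by
    rw [← r1]
    exact Set.smul_mem_smul_set hE
  have h5 := proj_of_δ h h4 h3
  have h6 := proj_of_δ h hE1 hE3
  rw [← h5, h6]

/-- **The `A₂`-star.** -/
theorem star_d [hp : Fact p.Prime] [F : OppRes.Cox cs] [Finite C] (hth : Δ.Thick) {a b : G} (hab : Good p a b)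
    {i j : I} (hM : M i j = 3) {u : W} (hi : cs.simple i * u = u * cs.simple i)
    (hj : cs.simple j * u = u * cs.simple j) (hil : ℓ u < ℓ (u * cs.simple i)) (hjl : ℓ u < ℓ (u * cs.simple j)) :
    u * cs.simple i ∉ Dis Δ a b := by
  intro hv
  have hM' : M j i = 3 := by rw [M.symmetric]; exact hM
  have hij : i ≠ j := (len_jij (cs := cs) hM).2.2.2
  have hK : ∀ k ∈ ({i, j} : Set I), cs.simple k * u = u * cs.simple k := by
    rintro k (rfl | rfl)
    · exact hi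
    · exact hj
  have h : Par cs {i, j} {i, j} u := par_of_comm hK (by
    rintro k (rfl | rfl)
    · exact hil
    · exact hjl)
  have hcm : ∀ w ∈ WJ cs ({i, j} : Set I), w * u = u * w := fun w hw => comm_of_mem hK hw
  have hmi : cs.simple i ∈ WJ cs ({i, j} : Set I) := simple_mem_WJ cs (by simp)
  have hmj : cs.simple j ∈ WJ cs ({i, j} : Set I) := simple_mem_WJ cs (by simp)
  have hne : cs.simple j * (u * cs.simple i) ≠ u * cs.simple i * cs.simple j := by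
    rw [← mul_assoc, hj, mul_assoc, mul_assoc]
    intro h1
    exact ne_ij_ji hM (mul_left_cancel h1).symm
  -- the position
  obtain ⟨g, c, hc, hbc⟩ := exists_pair S hth hv
  have hab' := hab.conjR g
  have hv' : u * cs.simple i ∈ Dis Δ a (g * b * g⁻¹) := by rw [dis_conj S]; exact hv
  set b' := g * b * g⁻¹ with hb'
  obtain ⟨c', hcc, hc'⟩ := Δ.exists_between hc (by
    have := cs.length_mul_simple u i
    rw [cs.length_simple]
    omega)
  have hax : a⁻¹ • c ∈ Δ.Res {i, j} c' := by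
    rw [Bldg.mem_Res, hc']
    exact hmi
  have hbx : b' • c ∈ Δ.Res {i, j} c' := by rw [hbc]; exact hax
  -- the two maps
  have hiso : ∀ x : G, x • c ∈ Δ.Res {i, j} c' → ∀ D ∈ Δ.Res {i, j} c, ∀ E ∈ Δ.Res {i, j} c,
      Δ.δ (psi Δ {i, j} c x D) (psi Δ {i, j} c x E) = Δ.δ D E := by
    intro x hx D hD E hE
    have h1 := psi_iso S h hcc hx hD hE
    rw [← hcm _ (Δ.δ_mem_of_mem_Res hD hE)] at h1
    exact mul_right_cancel h1
  have hno : ∀ x : G, x • c ∈ Δ.Res {i, j} c' → (∀ D, Δ.δ D (x • D) ≠ cs.simple j * (u * cs.simple i) ∧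
      Δ.δ D (x • D) ≠ u * cs.simple i * cs.simple j) → ∀ D ∈ Δ.Res {i, j} c,
      Δ.δ D (psi Δ {i, j} c x D) ≠ cs.simple i * cs.simple j ∧
      Δ.δ D (psi Δ {i, j} c x D) ≠ cs.simple j * cs.simple i := by
    intro x hx hY D hD
    have h1 := disp_eq S h hcc hx hD
    constructor
    · intro h2
      apply (hY D).2
      rw [h1, h2, hcm _ (mul_mem hmi hmj), mul_assoc]
    · intro h2
      apply (hY D).1
      rw [h1, h2, hcm _ (mul_mem hmj hmi), ← mul_assoc, ← mul_assoc, hj]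
  have hYa := hno a⁻¹ hax fun D => strongY' S hth hab hv hne D
  have hYb := hno b' hbx fun D => strongY S hth hab' hv' hne D
  set α := colOf hij (psi Δ {i, j} c a⁻¹) (fun D _ => psi_mem D) (hiso _ hax) hM (fun D hD => (hYa D hD).1)
    (fun D hD => (hYa D hD).2) with hα
  set β := colOf hij (psi Δ {i, j} c b') (fun D _ => psi_mem D) (hiso _ hbx) hM (fun D hD => (hYb D hD).1)
    (fun D hD => (hYb D hD).2) with hβ
  -- the group
  let R := Δ.Res {i, j} c
  let R' := Δ.Res {i, j} c'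
  let H : Subgroup G := MulAction.stabilizer G R ⊓ MulAction.stabilizer G R'
  have hHR : ∀ (h : H) {D : C}, D ∈ R → (h : G) • D ∈ R := by
    intro h D hD
    have h1 : (h : G) • R = R := h.2.1
    rw [← h1]
    exact Set.smul_mem_smul_set hD
  let actP : MulAction H (Pt Δ i j c) :=
    { smul := fun h s => ⟨(h : G) • s.1, by
        obtain ⟨s, D, hD, rfl⟩ := s
        exact ⟨(h : G) • D, hHR h hD, smul_Pan S _ _ _⟩⟩
      one_smul := fun s => Subtype.ext (one_smul G s.1)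
      mul_smul := fun h k s => Subtype.ext (mul_smul (h : G) (k : G) s.1) }
  let actL : MulAction H (Ln Δ i j c) :=
    { smul := fun h s => ⟨(h : G) • s.1, by
        obtain ⟨s, D, hD, rfl⟩ := s
        exact ⟨(h : G) • D, hHR h hD, smul_Pan S _ _ _⟩⟩
      one_smul := fun s => Subtype.ext (one_smul G s.1)
      mul_smul := fun h k s => Subtype.ext (mul_smul (h : G) (k : G) s.1) }
  have hsP : ∀ (h : H) (s : Pt Δ i j c), (h • s).1 = (h : G) • s.1 := fun _ _ => rfl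
  have hsL : ∀ (h : H) (s : Ln Δ i j c), (h • s).1 = (h : G) • s.1 := fun _ _ => rfl
  have hinc : ∀ (h : H) {s : Pt Δ i j c} {l : Ln Δ i j c}, Inc Δ i j c s l → Inc Δ i j c (h • s) (h • l) := by
    rintro h s l ⟨D, hD, hDl⟩
    exact ⟨(h : G) • D, Set.smul_mem_smul_set hD, Set.smul_mem_smul_set hDl⟩
  have hP := isPl (Δ := Δ) S hth hM c
  obtain ⟨k, -, hk⟩ := exists_card_Pan S hth i
  refine plane_false (H := H) hP hinc ?_ α β ?_ hp.out (k := k) ?_ ?_ ?_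
  · -- transitivity
    have key : ∀ {Q : Pt Δ i j c} {m : Ln Δ i j c} {x y : Pt Δ i j c}, ¬ Inc Δ i j c Q m → Inc Δ i j c x m →
        Inc Δ i j c y m → x ≠ y → ∃ A E, A ∈ x.1 ∧ A ∈ m.1 ∧ E ∈ Q.1 ∧
        Δ.δ A E = cs.simple i * cs.simple j * cs.simple i ∧ ∃ n : Ln Δ i j c, n ≠ m ∧ E ∈ n.1 ∧ Inc Δ i j c y n := by
      rintro Q m x y hQ ⟨A, hAx, hAm⟩ ⟨B', hB'y, hB'm⟩ hxy
      obtain ⟨n, ⟨B, hBy, hBn⟩, ⟨E, hEQ, hEn⟩⟩ := hP.join y Q
      have hnm : n ≠ m := by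
        rintro rfl
        exact hQ ⟨E, hEQ, hEn⟩
      have h1 : Δ.δ A B' = cs.simple i := by
        refine Δ.δ_eq_of_mem_Pan (x := A) (Δ.self_mem_Pan i A) (by rw [← m.eq hAm]; exact hB'm) ?_
        rintro rfl
        exact hxy (Pt.ext' hAx hB'y)
      have h2 : Δ.δ B' B = cs.simple j := by
        refine Δ.δ_eq_of_mem_Pan (x := B) (by rw [← y.eq hBy]; exact hB'y) (Δ.self_mem_Pan j B) ?_
        rintro rfl
        exact hnm (Ln.ext' hBn hB'm)
      have h3 : Δ.δ B E = cs.simple i := by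
        refine Δ.δ_eq_of_mem_Pan (x := B) (Δ.self_mem_Pan i B) (by rw [← n.eq hBn]; exact hEn) ?_
        rintro rfl
        have : y = Q := Pt.ext' hBy hEQ
        exact hQ ⟨B', by rw [← this]; exact hB'y, hB'm⟩
      obtain ⟨l2, l3, -, -⟩ := len_jij (cs := cs) hM'
      have h4 := Δ.δ_mul_of h1 h2 (by rw [l2, cs.length_simple, cs.length_simple])
      have h5 := Δ.δ_mul_of h4 h3 (by rw [l3, l2, cs.length_simple])
      exact ⟨A, E, hAx, hAm, hEQ, h5, n, hnm, hEn, ⟨B, hBy, hBn⟩⟩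
    intro Q m x y Q' m' x' y' hQ hx hy hxy hQ' hx' hy' hxy'
    obtain ⟨A, E, hAx, hAm, hEQ, hAE, n, hnm, hEn, hyn⟩ := key hQ hx hy hxy
    obtain ⟨A', E', hAx', hAm', hEQ', hAE', n', hnm', hEn', hyn'⟩ := key hQ' hx' hy' hxy'
    obtain ⟨g, hg1, hg2, hg3, hg4⟩ := exists_smul_res S hth h hcc (x.mem_Res hAx) (Q.mem_Res hEQ) (x'.mem_Res hAx')
      (Q'.mem_Res hEQ') (by rw [hAE, hAE'])
    let gH : H := ⟨g, hg1, hg2⟩
    have hm : gH • m = m' := by
      refine Ln.ext' (x := A') ?_ hAm'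
      rw [hsL, ← hg3]
      exact Set.smul_mem_smul_set hAm
    have hn : gH • n = n' := by
      refine Ln.ext' (x := E') ?_ hEn'
      rw [hsL, ← hg4]
      exact Set.smul_mem_smul_set hEn
    refine ⟨gH, ?_, hm, ?_, ?_⟩
    · refine Pt.ext' (x := E') ?_ hEQ'
      rw [hsP, ← hg4]
      exact Set.smul_mem_smul_set hEQ
    · refine Pt.ext' (x := A') ?_ hAx'
      rw [hsP, ← hg3]
      exact Set.smul_mem_smul_set hAx
    · have h1 := hinc gH hy
      have h2 := hinc gH hyn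
      rw [hm] at h1
      rw [hn] at h2
      rcases hP.uniq h1 hy' h2 hyn' with h3 | h3
      · exact h3
      · exact absurd h3.symm hnm'
  · -- agreement
    intro hh
    set g' : G := (hh : G) with hg'
    have hg1 : g' • R = R := hh.2.1
    have hg2 : g' • R' = R' := hh.2.2
    set y := g' * b' * g'⁻¹ with hy
    have hyx : y • c ∈ Δ.Res {i, j} c' := by
      have h1 : g'⁻¹ • c ∈ R := by
        have h2 : c ∈ g' • R := by rw [hg1]; exact Δ.self_mem_Res _ _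
        obtain ⟨D, hD, hDc⟩ := h2
        rw [← hDc]
        show g'⁻¹ • g' • D ∈ R
        rwa [inv_smul_smul]
      have h3 : b' • g'⁻¹ • c ∈ R' := smul_mem' S hbx h1
      rw [hy, mul_smul, mul_smul]
      show g' • b' • g'⁻¹ • c ∈ R'
      rw [← hg2]
      exact Set.smul_mem_smul_set h3
    have hPt : ∀ s : Pt Δ i j c, ((β.conj hinc hh).pt s).1 = psi Δ {i, j} c y '' s.1 := by
      intro s
      ext E
      constructor
      · rintro ⟨_, ⟨_, ⟨D, hD, rfl⟩, rfl⟩, rfl⟩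
        refine ⟨D, hD, ?_⟩
        exact psi_conj S h hcc hbx hg1 (s.mem_Res hD)
      · rintro ⟨D, hD, rfl⟩
        rw [psi_conj S h hcc hbx hg1 (s.mem_Res hD)]
        exact ⟨_, ⟨_, ⟨D, hD, rfl⟩, rfl⟩, rfl⟩
    have hLn : ∀ s : Ln Δ i j c, ((β.conj hinc hh).ln s).1 = psi Δ {i, j} c y '' s.1 := by
      intro s
      ext E
      constructor
      · rintro ⟨_, ⟨_, ⟨D, hD, rfl⟩, rfl⟩, rfl⟩
        refine ⟨D, hD, ?_⟩
        exact psi_conj S h hcc hbx hg1 (s.mem_Res hD)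
      · rintro ⟨D, hD, rfl⟩
        rw [psi_conj S h hcc hbx hg1 (s.mem_Res hD)]
        exact ⟨_, ⟨_, ⟨D, hD, rfl⟩, rfl⟩, rfl⟩
    have hz : PE p (a * y) := hab' g'
    have hzR : ∀ D ∈ R, ∀ E ∈ R, psi Δ {i, j} c a⁻¹ D = psi Δ {i, j} c y E → (a * y) • E = D := by
      intro D hD E hE he
      have h1 := (psi_eq_iff S h hcc hax hyx hD hE).1 he
      rw [mul_smul, ← h1, smul_inv_smul]
    have hzR' : ∀ D, (a * y) • D = D → psi Δ {i, j} c a⁻¹ D = psi Δ {i, j} c y D := by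
      intro D hD
      have h1 : y • D = a⁻¹ • D := by rw [eq_inv_smul_iff, ← mul_smul, hD]
      rw [psi, psi, h1]
    have hag : ∀ (s : Pt Δ i j c) (D : C), D ∈ s.1 → (a * y) • D = D → α.pt s = (β.conj hinc hh).pt s := by
      intro s D hD hzD
      refine Pt.ext' (x := psi Δ {i, j} c a⁻¹ D) ⟨D, hD, rfl⟩ ?_
      rw [hPt, hzR' D hzD]
      exact ⟨D, hD, rfl⟩
    constructor
    · intro l hl
      obtain ⟨D, hD⟩ := l.exists_mem
      have h1 : psi Δ {i, j} c a⁻¹ D ∈ ((β.conj hinc hh).ln l).1 := by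
        rw [← hl]
        exact ⟨D, hD, rfl⟩
      rw [hLn] at h1
      obtain ⟨E, hE, he⟩ := h1
      have h2 := hzR D (l.mem_Res hD) E (l.mem_Res hE) he.symm
      have h3 : (a * y) • E ∈ Δ.Pan i E := by
        rw [h2, ← l.eq hE]
        exact hD
      obtain ⟨E', hE', hzE⟩ := exists_fixed_pan S hz h3
      have hEl : E' ∈ l.1 := by rw [l.eq hE]; exact hE'
      exact ⟨mkPt (l.mem_Res hEl), ⟨E', Δ.self_mem_Pan j E', hEl⟩, hag _ E' (Δ.self_mem_Pan j E') hzE⟩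
    · intro l hl
      have hfix : ∀ s : Pt Δ i j c, Inc Δ i j c s l → α.pt s = (β.conj hinc hh).pt s → ∃ A, A ∈ s.1 ∧ A ∈ l.1 ∧
          (a * y) • A = A := by
        rintro s ⟨A, hAs, hAl⟩ hs
        refine ⟨A, hAs, hAl, ?_⟩
        have h1 : psi Δ {i, j} c a⁻¹ A ∈ ((β.conj hinc hh).ln l).1 := by
          rw [← hl]
          exact ⟨A, hAl, rfl⟩
        rw [hLn] at h1
        have h2 : psi Δ {i, j} c a⁻¹ A ∈ ((β.conj hinc hh).pt s).1 := by
          rw [← hs]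
          exact ⟨A, hAs, rfl⟩
        rw [hPt] at h2
        obtain ⟨A1, hA1, he1⟩ := h1
        obtain ⟨A2, hA2, he2⟩ := h2
        have h3 := hzR A (l.mem_Res hAl) A1 (l.mem_Res hA1) he1.symm
        have h4 := hzR A (l.mem_Res hAl) A2 (s.mem_Res hA2) he2.symm
        have h5 : A1 = A2 := smul_left_cancel (a * y) (by rw [h3, h4])
        rw [← h5] at hA2
        have h6 : A1 = A := eq_of_Pan_Pan hij (by rw [← l.eq hAl]; exact hA1) (by rw [← s.eq hAs]; exact hA2)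
        rw [h6] at h3
        exact h3
      intro s t hs ht hst hs1 ht1 r hr
      obtain ⟨A, hAs, hAl, hzA⟩ := hfix s hs hs1
      obtain ⟨B, hBt, hBl, hzB⟩ := hfix t ht ht1
      obtain ⟨E, hEr, hEl⟩ := hr
      have hBA : B ≠ A := by
        rintro rfl
        exact hst (Pt.ext' hAs hBt)
      refine hag r E hEr ?_
      exact fix_pan S (mem_U S hz hzA) (by rw [← l.eq hAl]; exact hBl) hBA hzB (by rw [← l.eq hAl]; exact hEl)
  · intro l
    rw [card_line hij l]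
    obtain ⟨D, hD⟩ := l.exists_mem
    rw [l.eq hD]
    exact hk D
  · have hc0 : c ∈ Δ.Res {i, j} c := Δ.self_mem_Res _ _
    have h1 := disp_eq S h hcc hax hc0
    rw [hc, ← hi] at h1
    have h2 : Δ.δ c (psi Δ {i, j} c a⁻¹ c) = cs.simple i := (mul_right_cancel h1).symm
    refine ⟨mkLn hc0, mkPt hc0, ?_, ⟨c, Δ.self_mem_Pan j c, Δ.self_mem_Pan i c⟩, ?_⟩
    · exact Ln.ext' (x := psi Δ {i, j} c a⁻¹ c) ⟨c, Δ.self_mem_Pan i c, rfl⟩ (Δ.mem_Pan_of_δ h2)
    · intro h3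
      have h4 : psi Δ {i, j} c a⁻¹ c ∈ (α.pt (mkPt hc0)).1 := ⟨c, Δ.self_mem_Pan j c, rfl⟩
      rw [h3] at h4
      exact Δ.ne_of_δ_simple h2 (eq_of_Pan_Pan hij (Δ.mem_Pan_of_δ h2) h4).symm
  · have hc0 : c ∈ Δ.Res {i, j} c := Δ.self_mem_Res _ _
    have h1 := disp_eq S h hcc hbx hc0
    rw [hbc, hc, ← hi] at h1
    have h2 : Δ.δ c (psi Δ {i, j} c b' c) = cs.simple i := (mul_right_cancel h1).symm
    refine ⟨mkLn hc0, mkPt hc0, ?_, ⟨c, Δ.self_mem_Pan j c, Δ.self_mem_Pan i c⟩, ?_⟩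
    · exact Ln.ext' (x := psi Δ {i, j} c b' c) ⟨c, Δ.self_mem_Pan i c, rfl⟩ (Δ.mem_Pan_of_δ h2)
    · intro h3
      have h4 : psi Δ {i, j} c b' c ∈ (β.pt (mkPt hc0)).1 := ⟨c, Δ.self_mem_Pan j c, rfl⟩
      rw [h3] at h4
      exact Δ.ne_of_δ_simple h2 (eq_of_Pan_Pan hij (Δ.mem_Pan_of_δ h2) h4).symm

end Cfsg.Agent.H772.Cls
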