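import Cfsg.Agent.H772.Cls.StarE
import Cfsg.Agent.H197.Cls.DisW
import Cfsg.Agent.Nodes.TypeD

/-!
# S2451, helper772: common displacements, simply laced diagrams

* `dis_le_one` : `M` simply laced, with a condition on the diagram (`Nbd`): then `Dis Δ a b ⊆ {1}`;
* `nbd_of_branch` : the condition for trees with at most one node of degree 3 which are not `D₄`;
* `nbd_E6`, `nbd_E7`, `nbd_E8`, `nbd_D` (`D_n`, `n ≥ 5`).
-/

set_option autoImplicit false
set_option linter.unusedSectionVars false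

open scoped Pointwise

namespace Cfsg.Agent.H772.Cls

open Cfsg.Agent.Tits.Core Cfsg.Agent.Tits.Core.Bldg Cfsg.Agent.Tits.Exchange Cfsg.Agent.Tits Cfsg.Agent.FixBN
open Cfsg.Agent.FixBN.Cox
open Cfsg.Agent.H197.Cls

variable {I : Type*} {M : CoxeterMatrix I} {W : Type*} [Group W] {cs : CoxeterSystem M W} {C : Type*}

local prefix:100 "ℓ" => cs.length

/-- one or two neighbours of `j` in `J` -/
def Nb (M : CoxeterMatrix I) (J : Set I) (j : I) : Prop :=
  (∃ i ∈ J, M i j = 3 ∧ ∀ k ∈ J, k ≠ i → M k j = 2) ∨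
    ∃ i ∈ J, ∃ k ∈ J, i ≠ k ∧ M i j = 3 ∧ M j k = 3 ∧ ∀ l ∈ J, l ≠ i → l ≠ k → M l j = 2

/-- the condition on the diagram -/
structure Nbd (M : CoxeterMatrix I) : Prop where
  sl : ∀ i j, i ≠ j → M i j = 2 ∨ M i j = 3
  nb : ∀ J : Set I, J.Nonempty → (∀ i ∈ J, ∀ j ∈ J, M i j ≠ 3) → ∃ j, j ∉ J ∧ Nb M J j

theorem nb_two (hsl : ∀ i j, i ≠ j → M i j = 2 ∨ M i j = 3) {J : Set I} {i j : I} (hi : i ∈ J) (hj : j ∉ J)
    (hij : M i j = 3) (s t : I) (h : ∀ k ∈ J, M k j = 3 → k = s ∨ k = t) : Nb M J j := by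
  have key : ∀ s t : I, (∀ k ∈ J, M k j = 3 → k = s ∨ k = t) → i = s → Nb M J j := by
    rintro s t h rfl
    by_cases ht : t ∈ J ∧ M t j = 3 ∧ t ≠ i
    · refine Or.inr ⟨i, hi, t, ht.1, ht.2.2.symm, hij, by rw [M.symmetric]; exact ht.2.1, fun l hl h1 h2 => ?_⟩
      rcases hsl l j (by rintro rfl; exact hj hl) with h3 | h3
      · exact h3
      · exfalso
        rcases h l hl h3 with h4 | h4
        · exact h1 h4
        · exact h2 h4
    · refine Or.inl ⟨i, hi, hij, fun l hl h1 => ?_⟩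
      rcases hsl l j (by rintro rfl; exact hj hl) with h3 | h3
      · exact h3
      · exfalso
        rcases h l hl h3 with h4 | h4
        · exact h1 h4
        · exact ht ⟨h4 ▸ hl, h4 ▸ h3, fun h5 => h1 (h4.trans h5)⟩
  rcases h i hi hij with h1 | h1
  · exact key s t h h1
  · exact key t s (fun k hk h2 => (h k hk h2).symm) h1

/-- no node of degree `≥ 3` -/
theorem nbd_of_line (hsl : ∀ i j, i ≠ j → M i j = 2 ∨ M i j = 3) (h4 : ∀ i, ∃ j, M i j = 3)
    (h1 : ∀ j, ∃ s t, ∀ k, M k j = 3 → k = s ∨ k = t) : Nbd M := by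
  refine ⟨hsl, fun J hJ hJ3 => ?_⟩
  obtain ⟨i, hi⟩ := hJ
  obtain ⟨j, hij⟩ := h4 i
  have hj : j ∉ J := fun hj => hJ3 i hi j hj hij
  obtain ⟨s, t, hst⟩ := h1 j
  exact ⟨j, hj, nb_two hsl hi hj hij s t fun k _ hk => hst k hk⟩

/-- one node `b` of degree 3, with a neighbour `x` which has another neighbour `w` -/
theorem nbd_of_branch (hsl : ∀ i j, i ≠ j → M i j = 2 ∨ M i j = 3) (h4 : ∀ i, ∃ j, M i j = 3) (b x y z w : I)
    (h1 : ∀ j, j ≠ b → ∃ s t, ∀ k, M k j = 3 → k = s ∨ k = t) (h2 : ∀ k, M k b = 3 → k = x ∨ k = y ∨ k = z)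
    (h3 : M x w = 3) (hw : w ≠ b) : Nbd M := by
  refine ⟨hsl, fun J hJ hJ3 => ?_⟩
  obtain ⟨i, hi⟩ := hJ
  obtain ⟨j, hij⟩ := h4 i
  have hj : j ∉ J := fun hj => hJ3 i hi j hj hij
  by_cases hjb : j = b
  · subst hjb
    by_cases hx : x ∈ J
    · by_cases hy : y ∈ J
      · by_cases hz : z ∈ J
        · obtain ⟨s, t, hst⟩ := h1 w hw
          have hwJ : w ∉ J := fun hwJ => hJ3 x hx w hwJ h3
          exact ⟨w, hwJ, nb_two hsl hx hwJ h3 s t fun k _ hk => hst k hk⟩
        · refine ⟨j, hj, nb_two hsl hi hj hij x y fun k hkJ hk => ?_⟩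
          rcases h2 k hk with h | h | h
          · exact Or.inl h
          · exact Or.inr h
          · exact absurd (h ▸ hkJ) hz
      · refine ⟨j, hj, nb_two hsl hi hj hij x z fun k hkJ hk => ?_⟩
        rcases h2 k hk with h | h | h
        · exact Or.inl h
        · exact absurd (h ▸ hkJ) hy
        · exact Or.inr h
    · refine ⟨j, hj, nb_two hsl hi hj hij y z fun k hkJ hk => ?_⟩
      rcases h2 k hk with h | h | h
      · exact absurd (h ▸ hkJ) hx
      · exact Or.inl h
      · exact Or.inr h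
  · obtain ⟨s, t, hst⟩ := h1 j hjb
    exact ⟨j, hj, nb_two hsl hi hj hij s t fun k _ hk => hst k hk⟩

/-! ### Splitting off commuting generators -/

/-- `W_J = W_{J∖i} × ⟨s_i⟩` if `s_i` commutes with `s_k`, `k ∈ J` -/
theorem split_one [F : OppRes.Cox cs] {J : Set I} {i : I} (hJ : ∀ k ∈ J, cs.simple k * cs.simple i = cs.simple i * cs.simple k)
    {w : W} (hw : w ∈ WJ cs J) (hd : ℓ (w * cs.simple i) < ℓ w) :
    ∃ u ∈ WJ cs (J \ {i}), w = u * cs.simple i := by
  have hss := cs.simple_mul_simple_self i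
  have key : ∀ w ∈ WJ cs J, w ∈ WJ cs (J \ {i}) ∨ ∃ u ∈ WJ cs (J \ {i}), w = u * cs.simple i := by
    intro w hw
    rw [WJ] at hw
    induction hw using Subgroup.closure_induction with
    | mem x hx =>
      obtain ⟨k, hk, rfl⟩ := hx
      by_cases hki : k = i
      · right
        exact ⟨1, one_mem _, by rw [one_mul, hki]⟩
      · left
        exact simple_mem_WJ cs ⟨hk, hki⟩
    | one => left; exact one_mem _
    | mul x y _ _ hx hy =>
      have hc : ∀ u ∈ WJ cs (J \ {i}), u * cs.simple i = cs.simple i * u := by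
        intro u hu
        rw [WJ] at hu
        induction hu using Subgroup.closure_induction with
        | mem x hx =>
          obtain ⟨k, hk, rfl⟩ := hx
          exact hJ k hk.1
        | one => rw [one_mul, mul_one]
        | mul x y _ _ hx hy => rw [mul_assoc, hy, ← mul_assoc, hx, mul_assoc]
        | inv x _ hx => rw [inv_mul_eq_iff_eq_mul, ← mul_assoc, hx, mul_assoc, mul_inv_cancel, mul_one]
      rcases hx with hx | ⟨u, hu, rfl⟩
      · rcases hy with hy | ⟨u', hu', rfl⟩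
        · left; exact mul_mem hx hy
        · right; exact ⟨x * u', mul_mem hx hu', by rw [mul_assoc]⟩
      · rcases hy with hy | ⟨u', hu', rfl⟩
        · right; exact ⟨u * y, mul_mem hu hy, by rw [mul_assoc, mul_assoc, hc y hy]⟩
        · left
          rw [mul_assoc, ← mul_assoc (cs.simple i), ← hc u' hu', mul_assoc, hss, mul_one]
          exact mul_mem hu hu'
    | inv x _ hx =>
      have hc : ∀ u ∈ WJ cs (J \ {i}), u * cs.simple i = cs.simple i * u := by
        intro u hu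
        rw [WJ] at hu
        induction hu using Subgroup.closure_induction with
        | mem x hx =>
          obtain ⟨k, hk, rfl⟩ := hx
          exact hJ k hk.1
        | one => rw [one_mul, mul_one]
        | mul x y _ _ hx hy => rw [mul_assoc, hy, ← mul_assoc, hx, mul_assoc]
        | inv x _ hx => rw [inv_mul_eq_iff_eq_mul, ← mul_assoc, hx, mul_assoc, mul_inv_cancel, mul_one]
      rcases hx with hx | ⟨u, hu, rfl⟩
      · left; exact inv_mem hx
      · right
        exact ⟨u⁻¹, inv_mem hu, by rw [mul_inv_rev, cs.inv_simple, hc _ (inv_mem hu)]⟩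
  rcases key w hw with h | h
  · exfalso
    exact (F.descent_mem _ w h i hd).2 rfl
  · exact h

theorem comm_WJ {J : Set I} {i : I} (hJ : ∀ k ∈ J, cs.simple k * cs.simple i = cs.simple i * cs.simple k) {u : W}
    (hu : u ∈ WJ cs J) : cs.simple i * u = u * cs.simple i := by
  rw [WJ] at hu
  induction hu using Subgroup.closure_induction with
  | mem x hx =>
    obtain ⟨k, hk, rfl⟩ := hx
    exact (hJ k hk).symm
  | one => rw [one_mul, mul_one]
  | mul x y _ _ hx hy => rw [← mul_assoc, hx, mul_assoc, hy, mul_assoc]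
  | inv x _ hx =>
    rw [eq_inv_mul_iff_mul_eq, ← mul_assoc, ← hx, mul_assoc, mul_inv_cancel, mul_one]

variable {Δ : Bldg cs C} {G : Type*} [Group G] [MulAction G C] {p : ℕ} (S : Sys Δ G p)

include S

/-- **`Dis Δ a b ⊆ {1}`** -/
theorem dis_le_one [hp : Fact p.Prime] [F : OppRes.Cox cs] [Finite C] (hth : Δ.Thick) {a b : G} (hab : Good p a b)
    (hM : Nbd M) {v : W} (hv : v ∈ Dis Δ a b) : v = 1 := by
  classical
  by_contra hv1
  -- a minimal counterexample
  have hne : ∃ n, ∃ v ∈ Dis Δ a b, v ≠ 1 ∧ ℓ v = n := ⟨_, v, hv, hv1, rfl⟩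
  obtain ⟨v, hv, hv1, hn⟩ := Nat.find_spec hne
  have hmin : ∀ w ∈ Dis Δ a b, ℓ w < ℓ v → w = 1 := by
    intro w hw hlt
    by_contra hw1
    have h1 := Nat.find_min' hne ⟨w, hw, hw1, rfl⟩
    omega
  obtain ⟨J, hvJ, hJd, hJc⟩ := eq_wJ_of_comm (cs := cs) (w := v) (by
    intro i hi
    by_contra hcon
    obtain ⟨h4, ⟨h5, h6, h7⟩ | ⟨h5, h6, h7⟩⟩ := dis_simple S hth hab hv hcon
    · rcases hi with hi | hi <;> omega
    · have h8 := hmin _ h4 (by omega)
      apply hv1
      have h9 : v = cs.simple i * (cs.simple i * v * cs.simple i) * cs.simple i := by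
        rw [mul_assoc, mul_assoc (cs.simple i * v), cs.simple_mul_simple_self, mul_one, ← mul_assoc,
          cs.simple_mul_simple_self, one_mul]
      rw [h9, h8, mul_one, cs.simple_mul_simple_self])
  rw [← hvJ] at hJc
  have hvm : v ∈ WJ cs J := by rw [hvJ]; exact F.wJ_mem J
  have hJr : ∀ i ∈ J, ℓ (v * cs.simple i) < ℓ v := fun i hi => by
    rw [← hJc i hi]
    exact (hJd i).1 hi
  have hJn : J.Nonempty := by
    rw [Set.nonempty_iff_ne_empty]
    rintro rfl
    apply hv1
    rw [WJ, Set.image_empty, Subgroup.closure_empty, Subgroup.mem_bot] at hvm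
    exact hvm
  have hJ3 : ∀ i ∈ J, ∀ j ∈ J, M i j ≠ 3 := by
    intro i hi j hj hij
    have h1 := star_c S hth hij hv (hJc i hi) (hJc j hj) (hJr i hi) (hJr j hj)
    have h2 := hmin _ h1 (hJr i hi)
    have h3 : v = cs.simple i := by rw [← cs.inv_simple]; exact eq_inv_of_mul_eq_one_left h2
    have h4 := hJr j hj
    rw [h3, cs.length_simple] at h4
    have h5 : ℓ (cs.simple i * cs.simple j) = 0 := by omega
    rw [cs.length_eq_zero_iff, mul_eq_one_iff_eq_inv, cs.inv_simple] at h5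
    exact (len_jij (cs := cs) hij).2.2.2 (F.inj h5)
  have hJc' : ∀ i ∈ J, ∀ k ∈ J, cs.simple k * cs.simple i = cs.simple i * cs.simple k := by
    intro i hi k hk
    by_cases hki : k = i
    · rw [hki]
    · rcases hM.sl k i hki with h | h
      · exact comm_of_m2 h
      · exact absurd h (hJ3 k hk i hi)
  obtain ⟨j, hj, ⟨i, hi, hij, hall⟩ | ⟨i, hi, k, hk, hik, hij, hjk, hall⟩⟩ := hM.nb J hJn hJ3
  · -- one neighbour
    obtain ⟨u, hu, hvu⟩ := split_one (fun k hk => hJc' i hi k hk) hvm (hJr i hi)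
    have hci : cs.simple i * u = u * cs.simple i := comm_WJ (fun k hk => hJc' i hi k hk.1) hu
    have hcj : cs.simple j * u = u * cs.simple j := comm_WJ (fun k hk => comm_of_m2 (hall k hk.1 hk.2)) hu
    have hli : ℓ u < ℓ (u * cs.simple i) := by
      rw [len_mul_of_mem hu (fun h => h.2 rfl)]; omega
    have hlj : ℓ u < ℓ (u * cs.simple j) := by
      rw [len_mul_of_mem hu (fun h => hj h.1)]; omega
    exact star_d S hth hab hij hci hcj hli hlj (by rw [← hvu]; exact hv)
  · -- two neighbours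
    have hik2 : M i k = 2 := by
      rcases hM.sl i k hik with h | h
      · exact h
      · exact absurd h (hJ3 i hi k hk)
    obtain ⟨u1, hu1, hvu1⟩ := split_one (fun l hl => hJc' k hk l hl) hvm (hJr k hk)
    have hu1i : ℓ (u1 * cs.simple i) < ℓ u1 := by
      have h1 := hJr i hi
      have h2 : ℓ v = ℓ u1 + 1 := by rw [hvu1, len_mul_of_mem hu1 (fun h => h.2 rfl)]
      have h3 : v * cs.simple i = u1 * cs.simple i * cs.simple k := by
        rw [hvu1, mul_assoc, hJc' i hi k hk, mul_assoc]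
      have h4 : ℓ (v * cs.simple i) = ℓ (u1 * cs.simple i) + 1 := by
        rw [h3, len_mul_of_mem (mul_mem hu1 (simple_mem_WJ cs ⟨hi, hik⟩)) (fun h => h.2 rfl)]
      omega
    obtain ⟨u, hu, hvu⟩ := split_one (fun l hl => hJc' i hi l hl.1) hu1 hu1i
    have hv' : v = u * (cs.simple i * cs.simple k) := by rw [hvu1, hvu, mul_assoc]
    have hci : cs.simple i * u = u * cs.simple i := comm_WJ (fun l hl => hJc' i hi l hl.1.1) hu
    have hck : cs.simple k * u = u * cs.simple k := comm_WJ (fun l hl => hJc' k hk l hl.1.1) hu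
    have hcj : cs.simple j * u = u * cs.simple j :=
      comm_WJ (fun l hl => comm_of_m2 (hall l hl.1.1 hl.2 hl.1.2)) hu
    have hli : ℓ u < ℓ (u * cs.simple i) := by
      rw [len_mul_of_mem hu (fun h => h.2 rfl)]; omega
    have hlj : ℓ u < ℓ (u * cs.simple j) := by
      rw [len_mul_of_mem hu (fun h => hj h.1.1)]; omega
    have hlk : ℓ u < ℓ (u * cs.simple k) := by
      rw [len_mul_of_mem hu (fun h => h.1.2 rfl)]; omega
    exact star_e S hth hab hij hjk hik2 hci hcj hck hli hlj hlk (by rw [← hv']; exact hv)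

omit S

/-! ### Instances -/

theorem nbd_E6 : Nbd CoxeterMatrix.E₆ :=
  nbd_of_branch (by intro i; fin_cases i <;> decide) (by intro i; fin_cases i <;> decide) 3 2 1 4 0
    (by decide) (by decide) (by decide) (by decide)

theorem nbd_E7 : Nbd CoxeterMatrix.E₇ :=
  nbd_of_branch (by intro i; fin_cases i <;> decide) (by intro i; fin_cases i <;> decide) 3 2 1 4 0
    (by decide) (by decide) (by decide) (by decide)

theorem nbd_E8 : Nbd CoxeterMatrix.E₈ :=
  nbd_of_branch (by intro i; fin_cases i <;> decide) (by intro i; fin_cases i <;> decide) 3 2 1 4 0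
    (by decide) (by decide) (by decide) (by decide)

/-- `D_{n+2}`, `n ≥ 3` -/
theorem nbd_D {n : ℕ} (hn : 3 ≤ n) : Nbd (Nodes.TypeD.M n) := by
  have h3 : ∀ i j, Nodes.TypeD.M n i j = 3 ↔ Nodes.TypeD.Adj i j ∨ Nodes.TypeD.Adj j i := by
    intro i j
    rw [Nodes.TypeD.M_apply]
    by_cases hij : i = j
    · subst hij
      rw [if_pos rfl]
      simp only [Nodes.TypeD.Adj]
      omega
    · rw [if_neg hij]
      split_ifs with h <;> simp [h]
  have h3' : ∀ i j : Fin (n + 2), Nodes.TypeD.M n i j = 3 ↔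
      ((j : ℕ) < n + 1 ∧ (i : ℕ) + 1 = j ∨ (j : ℕ) = n + 1 ∧ (i : ℕ) + 2 = j) ∨
        ((i : ℕ) < n + 1 ∧ (j : ℕ) + 1 = i ∨ (i : ℕ) = n + 1 ∧ (j : ℕ) + 2 = i) := h3
  refine nbd_of_branch ?_ ?_ ⟨n - 1, by omega⟩ ⟨n - 2, by omega⟩ ⟨n, by omega⟩ ⟨n + 1, by omega⟩ ⟨n - 3, by omega⟩
    ?_ ?_ ?_ ?_
  · intro i j hij
    rw [Nodes.TypeD.M_apply, if_neg hij]
    split_ifs
    · right; rfl
    · left; rfl
  · intro i
    have := i.2
    by_cases h0 : (i : ℕ) = 0
    · exact ⟨⟨1, by omega⟩, (h3' _ _).2 (by simp only; omega)⟩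
    · by_cases h1 : (i : ℕ) = n + 1
      · exact ⟨⟨n - 1, by omega⟩, (h3' _ _).2 (by simp only; omega)⟩
      · exact ⟨⟨i - 1, by omega⟩, (h3' _ _).2 (by simp only; omega)⟩
  · intro j hj
    have := j.2
    have hj' : (j : ℕ) ≠ n - 1 := fun h => hj (Fin.ext h)
    by_cases h1 : n ≤ (j : ℕ)
    · refine ⟨⟨n - 1, by omega⟩, ⟨n - 1, by omega⟩, fun k hk => ?_⟩
      rw [h3'] at hk
      left
      apply Fin.ext
      simp only
      omega
    · refine ⟨⟨j + 1, by omega⟩, ⟨j - 1, by omega⟩, fun k hk => ?_⟩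
      rw [h3'] at hk
      simp only [Fin.ext_iff]
      omega
  · intro k hk
    rw [h3'] at hk
    simp only [Fin.ext_iff] at hk ⊢
    omega
  · rw [h3']
    simp only
    omega
  · intro h
    have := congrArg Fin.val h
    simp only at this
    omega

end Cfsg.Agent.H772.Cls
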