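import Cfsg.Agent.H772.Cls.StarC

/-!
# S2451, helper772: words in a parabolic subgroup of type `A₃`, homotopies of galleries
-/

set_option autoImplicit false
set_option linter.unusedSectionVars false

open scoped Pointwise

namespace Cfsg.Agent.H772.Cls

open Cfsg.Agent.Tits.Core Cfsg.Agent.Tits.Core.Bldg Cfsg.Agent.Tits.Exchange Cfsg.Agent.Tits Cfsg.Agent.FixBN
open Cfsg.Agent.FixBN.Cox
open Cfsg.Agent.H197.Cls

variable {I : Type*} {M : CoxeterMatrix I} {W : Type*} [Group W] {cs : CoxeterSystem M W} {C : Type*}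

local prefix:100 "ℓ" => cs.length

theorem comm_of_m2 {i k : I} (h : M i k = 2) : cs.simple i * cs.simple k = cs.simple k * cs.simple i := by
  have h1 := cs.simple_mul_simple_pow i k
  rw [h, pow_two] at h1
  have h2 : cs.simple i * cs.simple k = (cs.simple i * cs.simple k)⁻¹ := eq_inv_of_mul_eq_one_left h1
  rw [mul_inv_rev, cs.inv_simple, cs.inv_simple] at h2
  exact h2

theorem ne_of_m2 {i k : I} (h : M i k = 2) : i ≠ k := by
  rintro rfl
  rw [M.diagonal] at h
  omega

theorem len_m2 [F : OppRes.Cox cs] {i k : I} (h : M i k = 2) : ℓ (cs.simple i * cs.simple k) = 2 := by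
  have hik := ne_of_m2 h
  rcases cs.length_mul_simple (cs.simple i) k with h1 | h1
  · rw [h1, cs.length_simple]
  · exfalso
    rw [cs.length_simple] at h1
    have h2 : ℓ (cs.simple i * cs.simple k) = 0 := by omega
    rw [cs.length_eq_zero_iff, mul_eq_one_iff_eq_inv, cs.inv_simple] at h2
    exact hik (F.inj h2)

/-- right multiplication with a simple reflection not in `J` -/
theorem len_mul_of_mem [F : OppRes.Cox cs] {J : Set I} {w : W} (hw : w ∈ WJ cs J) {k : I} (hk : k ∉ J) :
    ℓ (w * cs.simple k) = ℓ w + 1 := by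
  rcases cs.length_mul_simple w k with h | h
  · exact h
  · exact absurd (F.descent_mem J w hw k (by omega)) hk

theorem len_mul_of_mem' [F : OppRes.Cox cs] {J : Set I} {w : W} (hw : w ∈ WJ cs J) {k : I} (hk : k ∉ J) :
    ℓ (cs.simple k * w) = ℓ w + 1 := by
  have h := len_mul_of_mem (inv_mem hw) hk
  rw [← cs.length_inv, mul_inv_rev, inv_inv, cs.inv_simple, cs.length_inv] at h
  exact h

/-- two right descents -/
theorem two_desc [F : OppRes.Cox cs] {i j : I} (hM : M i j = 3) {w : W} (hi : ℓ (w * cs.simple i) < ℓ w)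
    (hj : ℓ (w * cs.simple j) < ℓ w) : ∃ w', w = w' * (cs.simple i * cs.simple j * cs.simple i) ∧ ℓ w = ℓ w' + 3 := by
  have hM' : M j i = 3 := by rw [M.symmetric]; exact hM
  obtain ⟨w', hw', u, hu, h⟩ := exists_isMinR cs {i, j} w
  have hu' : u = wJ cs {i, j} := by
    refine F.eq_wJ_of_descents hu fun k hk => ?_
    have h2 : ℓ (w * cs.simple k) < ℓ w := by
      rcases hk with rfl | rfl
      · exact hi
      · exact hj
    rw [h, mul_assoc, hw' _ (mul_mem hu (simple_mem_WJ cs hk)), hw' _ hu] at h2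
    omega
  refine ⟨w', by rw [h, hu', wJ_m3 hM], ?_⟩
  rw [h, hw' _ hu, hu', wJ_m3 hM]
  obtain ⟨-, l3, -, -⟩ := len_jij (cs := cs) hM'
  rw [l3]

/-- the elements of `W_{ij}` -/
theorem cases6 {Δ : Bldg cs C} {G : Type*} [Group G] [MulAction G C] {p : ℕ} (S : Sys Δ G p) [F : OppRes.Cox cs] {i j : I} (hM : M i j = 3) {w : W} (hw : w ∈ WJ cs {i, j}) :
    (w = 1 ∨ w = cs.simple i ∨ w = cs.simple i * cs.simple j) ∨
    (w = cs.simple j ∨ w = cs.simple j * cs.simple i ∨ w = cs.simple j * (cs.simple i * cs.simple j)) := by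
  have hM' : M j i = 3 := by rw [M.symmetric]; exact hM
  have hss := cs.simple_mul_simple_self j
  rcases lt_or_ge (ℓ w) (ℓ (cs.simple j * w)) with h | h
  · left
    exact cases_m3 S hM' (by rw [Set.pair_comm]; exact hw) h
  · right
    have h1 : ℓ (cs.simple j * w) < ℓ (cs.simple j * (cs.simple j * w)) := by
      rw [← mul_assoc, hss, one_mul]
      have := cs.length_simple_mul w j
      omega
    have e : w = cs.simple j * (cs.simple j * w) := by rw [← mul_assoc, hss, one_mul]
    have h2 := cases_m3 S hM' (w := cs.simple j * w) (by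
      rw [Set.pair_comm]; exact mul_mem (simple_mem_WJ cs (by simp)) hw) h1
    rcases h2 with h2 | h2 | h2
    · left; rw [e, h2, mul_one]
    · right; left; rw [e, h2]
    · right; right; rw [e, h2]

variable (cs) in
/-- the facts on `A₃` which are used -/
structure A3 (i j k : I) : Prop where
  l2 : ℓ (cs.simple i * cs.simple k) = 2
  l3L : ℓ (cs.simple j * (cs.simple i * cs.simple k)) = 3
  l3R : ℓ (cs.simple i * cs.simple k * cs.simple j) = 3
  l4 : ℓ (cs.simple j * (cs.simple i * cs.simple k) * cs.simple j) = 4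
  l5R : ℓ (cs.simple j * (cs.simple i * cs.simple k) * cs.simple j * cs.simple i) = 5
  l5L : ℓ (cs.simple i * (cs.simple j * (cs.simple i * cs.simple k) * cs.simple j)) = 5
  sw : cs.simple i * (cs.simple j * (cs.simple i * cs.simple k) * cs.simple j) =
    cs.simple j * (cs.simple i * cs.simple k) * cs.simple j * cs.simple k

theorem a3_facts [F : OppRes.Cox cs] {i j k : I} (hij : M i j = 3) (hjk : M j k = 3) (hik : M i k = 2) :
    A3 cs i j k := by
  have hji : M j i = 3 := by rw [M.symmetric]; exact hij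
  have hkj : M k j = 3 := by rw [M.symmetric]; exact hjk
  have hc := comm_of_m2 (cs := cs) hik
  have hik' := ne_of_m2 hik
  obtain ⟨l2, l3, hb, hij'⟩ := len_jij (cs := cs) hij
  obtain ⟨l2', l3', hb', hjk'⟩ := len_jij (cs := cs) hjk
  obtain ⟨l2'', l3'', hb'', -⟩ := len_jij (cs := cs) hkj
  have hss : ∀ k, cs.simple k * cs.simple k = 1 := cs.simple_mul_simple_self
  have hxz := len_m2 (cs := cs) hik
  have hmi : cs.simple i ∈ WJ cs ({i, j} : Set I) := simple_mem_WJ cs (by simp)
  have hmj : cs.simple j ∈ WJ cs ({i, j} : Set I) := simple_mem_WJ cs (by simp)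
  have hmi' : cs.simple i ∈ WJ cs ({i, k} : Set I) := simple_mem_WJ cs (by simp)
  have hmk' : cs.simple k ∈ WJ cs ({i, k} : Set I) := simple_mem_WJ cs (by simp)
  have hknij : k ∉ ({i, j} : Set I) := by
    rintro (h | h)
    · exact hik' h.symm
    · exact hjk' (Set.mem_singleton_iff.1 h).symm
  have hjnik : j ∉ ({i, k} : Set I) := by
    rintro (h | h)
    · exact hij' h.symm
    · exact hjk' (Set.mem_singleton_iff.1 h)
  have h3L : ℓ (cs.simple j * (cs.simple i * cs.simple k)) = 3 := by
    rw [← mul_assoc, len_mul_of_mem (mul_mem hmj hmi) hknij, l2]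
  have h3R : ℓ (cs.simple i * cs.simple k * cs.simple j) = 3 := by
    rw [len_mul_of_mem (mul_mem hmi' hmk') hjnik, hxz]
  have h4 : ℓ (cs.simple j * (cs.simple i * cs.simple k) * cs.simple j) = 4 := by
    rcases cs.length_mul_simple (cs.simple j * (cs.simple i * cs.simple k)) j with h | h
    · rw [h, h3L]
    · exfalso
      have d1 : ℓ (cs.simple j * (cs.simple i * cs.simple k) * cs.simple i) <
          ℓ (cs.simple j * (cs.simple i * cs.simple k)) := by
        rw [h3L, hc, mul_assoc, mul_assoc, hss, mul_one, l2'']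
        omega
      obtain ⟨w', hw', hl⟩ := two_desc hij d1 (by omega)
      have h0 : w' = 1 := by
        rw [h3L] at hl
        exact cs.length_eq_zero_iff.1 (by omega)
      rw [h0, one_mul] at hw'
      have h5 : cs.simple k ∈ WJ cs ({i, j} : Set I) := by
        have e : cs.simple k = (cs.simple j * cs.simple i)⁻¹ * (cs.simple j * (cs.simple i * cs.simple k)) := by group
        rw [e, hw']
        exact mul_mem (inv_mem (mul_mem hmj hmi)) (mul_mem (mul_mem hmi hmj) hmi)
      exact hknij (F.descent_mem _ _ h5 k (by rw [hss, cs.length_one, cs.length_simple]; omega))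
  have h5R : ℓ (cs.simple j * (cs.simple i * cs.simple k) * cs.simple j * cs.simple i) = 5 := by
    rcases cs.length_mul_simple (cs.simple j * (cs.simple i * cs.simple k) * cs.simple j) i with h | h
    · rw [h, h4]
    · exfalso
      obtain ⟨w', hw', hl⟩ := two_desc (cs := cs) hij (w := cs.simple j * (cs.simple i * cs.simple k) * cs.simple j) (by omega)
        (by rw [mul_assoc _ (cs.simple j), hss, mul_one, h3L, h4]; omega)
      have h0 : w' = cs.simple j * cs.simple k * cs.simple j := by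
        have e : w' = w' * (cs.simple i * cs.simple j * cs.simple i) * (cs.simple i * cs.simple j * cs.simple i)⁻¹ := by
          group
        rw [← hw'] at e
        rw [e, mul_inv_rev, mul_inv_rev, cs.inv_simple, cs.inv_simple]
        calc cs.simple j * (cs.simple i * cs.simple k) * cs.simple j * (cs.simple i * (cs.simple j * cs.simple i))
            = cs.simple j * (cs.simple i * cs.simple k) * (cs.simple j * cs.simple i * cs.simple j) * cs.simple i := by
              group
          _ = cs.simple j * (cs.simple i * cs.simple k) * (cs.simple i * cs.simple j * cs.simple i) * cs.simple i := by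
              rw [hb]
          _ = cs.simple j * (cs.simple k * cs.simple i) * (cs.simple i * cs.simple j * cs.simple i) * cs.simple i := by
              rw [hc]
          _ = cs.simple j * cs.simple k * (cs.simple i * cs.simple i) * cs.simple j * (cs.simple i * cs.simple i) := by
              group
          _ = _ := by rw [hss, mul_one, mul_one]
      rw [h4, h0] at hl
      have l3z : ℓ (cs.simple j * cs.simple k * cs.simple j) = 3 := l3''
      omega
  have hinv : (cs.simple j * (cs.simple i * cs.simple k) * cs.simple j)⁻¹ =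
      cs.simple j * (cs.simple i * cs.simple k) * cs.simple j := by
    rw [mul_inv_rev, mul_inv_rev, mul_inv_rev, cs.inv_simple, cs.inv_simple, cs.inv_simple, ← hc]
    group
  refine ⟨hxz, h3L, h3R, h4, h5R, ?_, ?_⟩
  · rw [← cs.length_inv, mul_inv_rev, hinv, cs.inv_simple]
    exact h5R
  · -- `i (j i k j) = (j i k j) k`
    calc cs.simple i * (cs.simple j * (cs.simple i * cs.simple k) * cs.simple j)
        = (cs.simple i * cs.simple j * cs.simple i) * cs.simple k * cs.simple j := by group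
      _ = (cs.simple j * cs.simple i * cs.simple j) * cs.simple k * cs.simple j := by rw [hb]
      _ = cs.simple j * cs.simple i * (cs.simple j * cs.simple k * cs.simple j) := by group
      _ = cs.simple j * cs.simple i * (cs.simple k * cs.simple j * cs.simple k) := by rw [hb'']
      _ = _ := by group

variable {Δ : Bldg cs C}

/-! ### Homotopies -/

theorem hom3 [F : OppRes.Cox cs] {i j : I} (hM : M i j = 3) {x0 x1 x2 x3 : C} (h1 : Δ.δ x0 x1 = cs.simple i)
    (h2 : Δ.δ x1 x2 = cs.simple j) (h3 : Δ.δ x2 x3 = cs.simple i) :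
    ∃ y1 y2, Δ.δ x0 y1 = cs.simple j ∧ Δ.δ y1 y2 = cs.simple i ∧ Δ.δ y2 x3 = cs.simple j := by
  have hM' : M j i = 3 := by rw [M.symmetric]; exact hM
  obtain ⟨l2, l3, hb, -⟩ := len_jij (cs := cs) hM
  obtain ⟨l2', l3', -, -⟩ := len_jij (cs := cs) hM'
  have e1 := Δ.δ_mul_of h1 h2 (by rw [l2', cs.length_simple, cs.length_simple])
  have e2 := Δ.δ_mul_of e1 h3 (by rw [l3', l2', cs.length_simple])
  rw [← hb] at e2
  obtain ⟨y2, hy2, hy3⟩ := Δ.exists_between e2 (by rw [l3, l2, cs.length_simple])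
  obtain ⟨y1, hy1, hy4⟩ := Δ.exists_between hy2 (by rw [l2, cs.length_simple, cs.length_simple])
  exact ⟨y1, y2, hy1, hy4, hy3⟩

theorem hom2 [F : OppRes.Cox cs] {i k : I} (hM : M i k = 2) {x0 x1 x2 : C} (h1 : Δ.δ x0 x1 = cs.simple i)
    (h2 : Δ.δ x1 x2 = cs.simple k) : ∃ y1, Δ.δ x0 y1 = cs.simple k ∧ Δ.δ y1 x2 = cs.simple i := by
  have l2 := len_m2 (cs := cs) hM
  have e1 := Δ.δ_mul_of h1 h2 (by rw [l2, cs.length_simple, cs.length_simple])
  rw [comm_of_m2 hM] at e1 l2
  obtain ⟨y1, hy1, hy2⟩ := Δ.exists_between e1 (by rw [l2, cs.length_simple, cs.length_simple])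
  exact ⟨y1, hy1, hy2⟩

/-- from a gallery of type `i j i k j i` to one of type `k j i j k j` -/
theorem hom6 [F : OppRes.Cox cs] {i j k : I} (hij : M i j = 3) (hjk : M j k = 3) (hik : M i k = 2)
    {c1 c2 c3 c4 c5 c6 c7 : C} (h1 : Δ.δ c1 c2 = cs.simple i) (h2 : Δ.δ c2 c3 = cs.simple j)
    (h3 : Δ.δ c3 c4 = cs.simple i) (h4 : Δ.δ c4 c5 = cs.simple k) (h5 : Δ.δ c5 c6 = cs.simple j)
    (h6 : Δ.δ c6 c7 = cs.simple i) :
    ∃ e1 e2 e3, Δ.δ c1 e1 = cs.simple k ∧ Δ.δ e1 e2 = cs.simple j ∧ Δ.δ e2 e3 = cs.simple i ∧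
      e3 ∈ Δ.Res {j, k} c7 := by
  have hkj : M k j = 3 := by rw [M.symmetric]; exact hjk
  have hji : M j i = 3 := by rw [M.symmetric]; exact hij
  have hki : M k i = 2 := by rw [M.symmetric]; exact hik
  obtain ⟨d4, a1, a2⟩ := hom2 hik h3 h4
  obtain ⟨d5, d6, a3, a4, a5⟩ := hom3 hij a2 h5 h6
  obtain ⟨f3, f4, a6, a7, a8⟩ := hom3 hjk h2 a1 a3
  obtain ⟨g2, a9, a10⟩ := hom2 hik h1 a6
  obtain ⟨g5, a11, a12⟩ := hom2 hki a8 a4
  obtain ⟨e2, e3, a13, a14, a15⟩ := hom3 hij a10 a7 a11
  refine ⟨g2, e2, e3, a9, a13, a14, ?_⟩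
  have r1 : d6 ∈ Δ.Res {j, k} c7 := Δ.Pan_subset_Res (by simp) _ (Δ.mem_Pan_of_δ (Δ.δ_symm_simple a5))
  have r2 : g5 ∈ Δ.Res {j, k} c7 :=
    Δ.mem_Res_trans r1 (Δ.Pan_subset_Res (by simp) _ (Δ.mem_Pan_of_δ (Δ.δ_symm_simple a12)))
  exact Δ.mem_Res_trans r2 (Δ.Pan_subset_Res (by simp) _ (Δ.mem_Pan_of_δ (Δ.δ_symm_simple a15)))

end Cfsg.Agent.H772.Cls
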