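import Mathlib

/-!
# S2451, helper772: two theorems on finite projective planes

* `exists_absolute` : a correlation of a finite projective plane whose order is divisible by `p` has an absolute point;
* `plane_false` : two nontrivial collineations `α`, `β` for which `x, α x, α² x` are collinear for each `x` (and dually),
  such that all products `α⁻¹ β ^ h` behave like `p`-elements, do not exist.
-/

set_option autoImplicit false

namespace Cfsg.Agent.H772.Cls

/-! ### Correlations -/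

open Classical in
/-- a correlation has an absolute point -/
theorem exists_absolute {P L : Type*} [Fintype P] (inc : P → L → Prop) {p : ℕ} [Fact p.Prime] [Nonempty P]
    (hmeet : ∀ l m, ((Finset.univ.filter (fun y => inc y l ∧ inc y m)).card : ZMod p) = 1) (ρ : P → L) (ρ' : L → P)
    (hρ' : Function.Surjective ρ') (hinc : ∀ x l, inc x l ↔ inc (ρ' l) (ρ x)) : ∃ x, inc x (ρ x) := by
  by_contra hcon
  push Not at hcon
  let J : Matrix P P (ZMod p) := fun _ _ => 1
  let X : Matrix P P (ZMod p) := fun x y => if inc y (ρ x) then 1 else 0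
  have hXX : X * X = J := by
    ext x z
    obtain ⟨l, rfl⟩ := hρ' z
    rw [Matrix.mul_apply]
    show ∑ y, (if inc y (ρ x) then (1 : ZMod p) else 0) * (if inc (ρ' l) (ρ y) then 1 else 0) = 1
    refine Eq.trans ?_ (hmeet (ρ x) l)
    rw [Finset.natCast_card_filter]
    refine Finset.sum_congr rfl fun y _ => ?_
    rw [← hinc]
    by_cases h1 : inc y (ρ x) <;> by_cases h2 : inc y l <;> simp [h1, h2]
  have hXJ : X * J = J := by
    ext x z
    rw [Matrix.mul_apply]
    show ∑ y, (if inc y (ρ x) then (1 : ZMod p) else 0) * 1 = 1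
    refine Eq.trans ?_ (hmeet (ρ x) (ρ x))
    rw [Finset.natCast_card_filter]
    refine Finset.sum_congr rfl fun y _ => ?_
    by_cases h1 : inc y (ρ x) <;> simp [h1]
  have hJX : J * X = J := by
    rw [← hXX, mul_assoc, hXX, hXJ]
  have hJJ : J * J = J := by
    nth_rw 1 [← hXX]
    rw [mul_assoc, hXJ, hXJ]
  have hnil : IsNilpotent (X - J) := by
    refine ⟨2, ?_⟩
    rw [pow_two, sub_mul, mul_sub, mul_sub, hXX, hXJ, hJX, hJJ]
    abel
  have htr := (Matrix.isNilpotent_trace_of_isNilpotent hnil).eq_zero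
  rw [Matrix.trace_sub] at htr
  have h1 : X.trace = 0 := by
    rw [Matrix.trace]
    refine Finset.sum_eq_zero fun x _ => ?_
    exact if_neg (hcon x)
  have h2 : J.trace = 1 := by
    obtain ⟨x0⟩ := ‹Nonempty P›
    have h3 := congrFun (congrFun hJJ x0) x0
    rw [Matrix.mul_apply] at h3
    have h4 : J.trace = ∑ j : P, J x0 j * J j x0 := by
      rw [Matrix.trace]
      refine Finset.sum_congr rfl fun x _ => ?_
      show (1 : ZMod p) = 1 * 1
      rw [one_mul]
    rw [h4, h3]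
  rw [h1, h2] at htr
  simp at htr

/-! ### Collineations -/

section

variable {P L : Type*}

/-- the axioms of a projective plane which are used -/
structure Pl (inc : P → L → Prop) : Prop where
  join : ∀ p q, ∃ l, inc p l ∧ inc q l
  meet : ∀ l m, ∃ p, inc p l ∧ inc p m
  uniq : ∀ {p q l m}, inc p l → inc q l → inc p m → inc q m → p = q ∨ l = m
  third : ∀ l p q, ∃ r, inc r l ∧ r ≠ p ∧ r ≠ q
  off : ∀ l, ∃ p, ¬ inc p l

/-- a collineation -/
structure Col (inc : P → L → Prop) where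
  pt : P → P
  ln : L → L
  map : ∀ {p l}, inc p l → inc (pt p) (ln l)
  inj : Function.Injective pt
  /-- `x`, `α x`, `α² x` are on a line -/
  F1 : ∀ {p l}, pt p ≠ p → inc p l → inc (pt p) l → ln l = l
  F2 : ∀ {p l}, ln l ≠ l → inc p l → inc p (ln l) → pt p = p

/-- two collineations such that `α⁻¹ γ` is like a `p`-element -/
structure Ag {inc : P → L → Prop} (α γ : Col inc) : Prop where
  Z1 : ∀ l, α.ln l = γ.ln l → ∃ p, inc p l ∧ α.pt p = γ.pt p
  Z2 : ∀ l, α.ln l = γ.ln l → ∀ {p q}, inc p l → inc q l → p ≠ q → α.pt p = γ.pt p → α.pt q = γ.pt q →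
    ∀ r, inc r l → α.pt r = γ.pt r

variable {inc : P → L → Prop} (hP : Pl inc)

theorem Col.pt_of_lines (α : Col inc) {p : P} {l m : L} (hlm : l ≠ m) (hl : inc p l) (hm : inc p m) (h1 : α.ln l = l)
    (h2 : α.ln m = m) (hP : Pl inc) : α.pt p = p := by
  have h3 := α.map hl
  have h4 := α.map hm
  rw [h1] at h3
  rw [h2] at h4
  rcases hP.uniq h3 hl h4 hm with h | h
  · exact h
  · exact absurd h hlm

theorem Col.ln_of_pts (α : Col inc) {p q : P} {l : L} (hpq : p ≠ q) (hp : inc p l) (hq : inc q l) (h1 : α.pt p = p)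
    (h2 : α.pt q = q) (hP : Pl inc) : α.ln l = l := by
  have h3 := α.map hp
  have h4 := α.map hq
  rw [h1] at h3
  rw [h2] at h4
  rcases hP.uniq h3 h4 hp hq with h | h
  · exact absurd h hpq
  · exact h

theorem ag_ln {α γ : Col inc} {p q : P} {l : L} (hpq : p ≠ q) (hp : inc p l) (hq : inc q l) (h1 : α.pt p = γ.pt p)
    (h2 : α.pt q = γ.pt q) (hP : Pl inc) : α.ln l = γ.ln l := by
  have h3 := γ.map hp
  have h4 := γ.map hq
  rw [← h1] at h3
  rw [← h2] at h4
  rcases hP.uniq (α.map hp) (α.map hq) h3 h4 with h | h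
  · exact absurd (α.inj h) hpq
  · exact h

include hP

/-- **A common fixed point.** -/
theorem common {α γ : Col inc} (hag : Ag α γ) {Q : P} {m : L} (hQ : ¬ inc Q m) (hαQ : α.pt Q = Q) (hγQ : γ.pt Q = Q)
    (hαm : α.ln m = m) (hγm : γ.ln m = m) : ∃ o, inc o m ∧ α.pt o = o ∧ γ.pt o = o := by
  obtain ⟨f, hf, hff⟩ := hag.Z1 m (by rw [hαm, hγm])
  by_cases hfα : α.pt f = f
  · exact ⟨f, hf, hfα, by rw [← hff, hfα]⟩
  have hfQ : f ≠ Q := by
    rintro rfl
    exact hQ hf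
  obtain ⟨n, hfn, hQn⟩ := hP.join f Q
  have hnm : n ≠ m := by
    rintro rfl
    exact hQ hQn
  have hn : α.ln n = γ.ln n := ag_ln hfQ hfn hQn hff (by rw [hαQ, hγQ]) hP
  obtain ⟨y, hy, hyQ, hyf⟩ := hP.third n Q f
  have hyy : α.pt y = γ.pt y := hag.Z2 n hn hfn hQn hfQ hff (by rw [hαQ, hγQ]) y hy
  have hyα : α.pt y ≠ y := by
    intro h
    exact hfα (α.pt_of_lines hnm hfn hf (α.ln_of_pts hyQ hy hQn h hαQ hP) hαm hP)
  obtain ⟨k, hk, hk'⟩ := hP.join y (α.pt y)
  have h1 : α.ln k = k := α.F1 hyα hk hk'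
  have h2 : γ.ln k = k := γ.F1 (by rw [← hyy]; exact hyα) hk (by rw [← hyy]; exact hk')
  have hkm : k ≠ m := by
    rintro rfl
    rcases hP.uniq hy hfn hk hf with h | h
    · exact hyf h
    · exact hnm h
  obtain ⟨o, ho, ho'⟩ := hP.meet k m
  exact ⟨o, ho', α.pt_of_lines hkm ho ho' h1 hαm hP, γ.pt_of_lines hkm ho ho' h2 hγm hP⟩

/-- a moved point on a stable line gives a fixed antiflag -/
theorem exists_antiflag (α : Col inc) {m : L} (hm : α.ln m = m) {x : P} (hx : inc x m) (hxα : α.pt x ≠ x) :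
    ∃ Q, ¬ inc Q m ∧ α.pt Q = Q := by
  obtain ⟨y, hy⟩ := hP.off m
  obtain ⟨l, hxl, hyl⟩ := hP.join x y
  have hlm : l ≠ m := by
    rintro rfl
    exact hy hyl
  have hl : α.ln l ≠ l := fun h => hxα (α.pt_of_lines hlm hxl hx h hm hP)
  obtain ⟨Q, hQ, hQ'⟩ := hP.meet l (α.ln l)
  have hQf : α.pt Q = Q := α.F2 hl hQ hQ'
  refine ⟨Q, fun h => ?_, hQf⟩
  rcases hP.uniq hxl hQ hx h with h1 | h1
  · rw [h1] at hxα
    exact hxα hQf
  · exact hlm h1

/-- agreement on a line and at a point off the line gives agreement everywhere -/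
theorem agree_all {α γ : Col inc} (hag : Ag α γ) {Q : P} {m : L} (hQ : ¬ inc Q m) (hQQ : α.pt Q = γ.pt Q)
    (hm : ∀ r, inc r m → α.pt r = γ.pt r) (x : P) : α.pt x = γ.pt x := by
  by_cases hx : x = Q
  · rw [hx, hQQ]
  obtain ⟨n, hxn, hQn⟩ := hP.join x Q
  obtain ⟨y, hyn, hym⟩ := hP.meet n m
  have hyQ : y ≠ Q := by
    rintro rfl
    exact hQ hym
  exact hag.Z2 n (ag_ln hyQ hyn hQn (hm y hym) hQQ hP) hyn hQn hyQ (hm y hym) hQQ x hxn

end

/-! ### The group -/

section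

variable {P L : Type*} {inc : P → L → Prop} {H : Type*} [Group H] [MulAction H P] [MulAction H L]

/-- the conjugate of a collineation -/
def Col.conj (hinc : ∀ (h : H) {p l}, inc p l → inc (h • p) (h • l)) (h : H) (α : Col inc) : Col inc where
  pt p := h • α.pt (h⁻¹ • p)
  ln l := h • α.ln (h⁻¹ • l)
  map {p l} hpl := hinc h (α.map (hinc h⁻¹ hpl))
  inj x y hxy := by
    have h1 := α.inj (smul_left_cancel h hxy)
    exact smul_left_cancel h⁻¹ h1
  F1 {p l} hne h1 h2 := by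
    have h3 : α.pt (h⁻¹ • p) ≠ h⁻¹ • p := fun h4 => hne (by rw [h4, smul_inv_smul])
    have h4 := hinc h⁻¹ h2
    rw [inv_smul_smul] at h4
    rw [α.F1 h3 (hinc h⁻¹ h1) h4, smul_inv_smul]
  F2 {p l} hne h1 h2 := by
    have h3 : α.ln (h⁻¹ • l) ≠ h⁻¹ • l := fun h4 => hne (by rw [h4, smul_inv_smul])
    have h4 := hinc h⁻¹ h2
    rw [inv_smul_smul] at h4
    rw [α.F2 h3 (hinc h⁻¹ h1) h4, smul_inv_smul]

/-- **The contradiction.** -/
theorem plane_false [Finite P] (hP : Pl inc) (hinc : ∀ (h : H) {p l}, inc p l → inc (h • p) (h • l))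
    (htr : ∀ {Q : P} {m : L} {x y : P} {Q' : P} {m' : L} {x' y' : P}, ¬ inc Q m → inc x m → inc y m → x ≠ y →
      ¬ inc Q' m' → inc x' m' → inc y' m' → x' ≠ y' → ∃ h : H, h • Q = Q' ∧ h • m = m' ∧ h • x = x' ∧ h • y = y')
    (α β : Col inc) (hag : ∀ h : H, Ag α (β.conj hinc h)) {p k : ℕ} (hp : p.Prime)
    (hcard : ∀ l, Nat.card {x : P // inc x l} = p ^ k + 1) (hα : ∃ m x, α.ln m = m ∧ inc x m ∧ α.pt x ≠ x)
    (hβ : ∃ m x, β.ln m = m ∧ inc x m ∧ β.pt x ≠ x) : False := by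
  classical
  obtain ⟨m, x, hm, hx, hxα⟩ := hα
  obtain ⟨Q, hQ, hQα⟩ := exists_antiflag hP α hm hx hxα
  obtain ⟨m', x', hm', hx', hxβ⟩ := hβ
  obtain ⟨Q', hQ', hQβ⟩ := exists_antiflag hP β hm' hx' hxβ
  have hαx : inc (α.pt x) m := by
    have := α.map hx
    rwa [hm] at this
  have hβx : inc (β.pt x') m' := by
    have := β.map hx'
    rwa [hm'] at this
  -- first position
  obtain ⟨h, hh1, hh2, hh3, hh4⟩ := htr hQ' hx' hβx (Ne.symm hxβ) hQ hx hαx (Ne.symm hxα)
  have e1 : h⁻¹ • Q = Q' := by rw [inv_smul_eq_iff, hh1]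
  have e2 : h⁻¹ • m = m' := by rw [inv_smul_eq_iff, hh2]
  have e3 : h⁻¹ • x = x' := by rw [inv_smul_eq_iff, hh3]
  set γ := β.conj hinc h with hγ
  have hγQ : γ.pt Q = Q := by
    show h • β.pt (h⁻¹ • Q) = Q
    rw [e1, hQβ, hh1]
  have hγm : γ.ln m = m := by
    show h • β.ln (h⁻¹ • m) = m
    rw [e2, hm', hh2]
  have hγx : γ.pt x = α.pt x := by
    show h • β.pt (h⁻¹ • x) = α.pt x
    rw [e3, hh4]
  obtain ⟨o, ho, hoα, hoγ⟩ := common hP (hag h) hQ hQα hγQ hm hγm
  have hox : o ≠ x := by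
    rintro rfl
    exact hxα hoα
  have hall : ∀ y, α.pt y = γ.pt y := by
    refine agree_all hP (hag h) hQ (by rw [hQα, hγQ]) ?_
    exact (hag h).Z2 m (by rw [hm, hγm]) ho hx hox (by rw [hoα, hoγ]) hγx.symm
  -- the conjugates
  have hconj : ∀ (g : H) (y : P), (β.conj hinc (g * h)).pt y = g • α.pt (g⁻¹ • y) := by
    intro g y
    show (g * h) • β.pt ((g * h)⁻¹ • y) = _
    rw [hall (g⁻¹ • y)]
    show _ = g • h • β.pt (h⁻¹ • g⁻¹ • y)
    rw [mul_inv_rev, mul_smul, mul_smul]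
  have hconjm : ∀ g : H, g • m = m → (β.conj hinc (g * h)).ln m = m := by
    intro g hg
    show (g * h) • β.ln ((g * h)⁻¹ • m) = m
    have h1 : g⁻¹ • m = m := by rw [inv_smul_eq_iff, hg]
    rw [mul_inv_rev, mul_smul, mul_smul, h1]
    show g • γ.ln m = m
    rw [hγm, hg]
  -- blocks
  let B : H → P → Prop := fun g y => inc y m ∧ α.pt (g⁻¹ • y) = g⁻¹ • y
  have hB1 : ∀ g : H, g • Q = Q → g • m = m → ∃ y, B 1 y ∧ B g y := by
    intro g hg1 hg2
    have h1 : g⁻¹ • Q = Q := by rw [inv_smul_eq_iff, hg1]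
    obtain ⟨y, hy, hy1, hy2⟩ := common hP (hag (g * h)) hQ hQα (by rw [hconj, h1, hQα, hg1]) hm (hconjm g hg2)
    rw [hconj] at hy2
    exact ⟨y, ⟨hy, by rw [inv_one, one_smul, hy1]⟩, hy, by rw [eq_inv_smul_iff, hy2]⟩
  have hB2 : ∀ g : H, g • Q = Q → g • m = m → ∀ y z, y ≠ z → B 1 y → B g y → B 1 z → B g z → ∀ t, B 1 t ↔ B g t := by
    rintro g hg1 hg2 y z hyz ⟨hy, hy1⟩ ⟨-, hy2⟩ ⟨hz, hz1⟩ ⟨-, hz2⟩ t
    rw [inv_one, one_smul] at hy1 hz1
    have h3 : ∀ w, inc w m → α.pt w = (β.conj hinc (g * h)).pt w :=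
      (hag (g * h)).Z2 m (by rw [hm, hconjm g hg2]) hy hz hyz (by rw [hconj, hy2, smul_inv_smul, hy1])
        (by rw [hconj, hz2, smul_inv_smul, hz1])
    constructor
    · rintro ⟨ht, ht1⟩
      rw [inv_one, one_smul] at ht1
      have h4 := h3 t ht
      rw [hconj, ht1] at h4
      exact ⟨ht, by rw [eq_inv_smul_iff, ← h4]⟩
    · rintro ⟨ht, ht1⟩
      have h4 := h3 t ht
      rw [hconj, ht1, smul_inv_smul] at h4
      exact ⟨ht, by rw [inv_one, one_smul, h4]⟩
  have hBg : ∀ g k : H, g • m = m → ∀ y, B k y ↔ B (g * k) (g • y) := by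
    intro g k hg y
    have h1 : g⁻¹ • m = m := by rw [inv_smul_eq_iff, hg]
    show (inc y m ∧ α.pt (k⁻¹ • y) = k⁻¹ • y) ↔ (inc (g • y) m ∧ α.pt ((g * k)⁻¹ • g • y) = (g * k)⁻¹ • g • y)
    have e : (g * k)⁻¹ • g • y = k⁻¹ • y := by rw [mul_inv_rev, mul_smul, inv_smul_smul]
    rw [e]
    refine and_congr_left fun _ => ⟨fun h2 => ?_, fun h2 => ?_⟩
    · have := hinc g h2
      rwa [hg] at this
    · have := hinc g⁻¹ h2
      rwa [h1, inv_smul_smul] at this
  -- two blocks which share two points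
  have hB3 : ∀ g k : H, g • Q = Q → g • m = m → k • Q = Q → k • m = m → ∀ y z, y ≠ z → B g y → B k y → B g z →
      B k z → ∀ t, B g t ↔ B k t := by
    intro g k hg1 hg2 hk1 hk2 y z hyz h1 h2 h3 h4 t
    have hg1' : g⁻¹ • Q = Q := by rw [inv_smul_eq_iff, hg1]
    have hg2' : g⁻¹ • m = m := by rw [inv_smul_eq_iff, hg2]
    rw [hBg g⁻¹ g hg2', hBg g⁻¹ k hg2', inv_mul_cancel] at *
    exact hB2 (g⁻¹ * k) (by rw [mul_smul, hk1, hg1']) (by rw [mul_smul, hk2, hg2']) (g⁻¹ • y) (g⁻¹ • z)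
      (fun h => hyz (smul_left_cancel _ h)) h1 h2 h3 h4 _
  have hB4 : ∀ g k : H, g • Q = Q → g • m = m → k • Q = Q → k • m = m → ∃ y, B g y ∧ B k y := by
    intro g k hg1 hg2 hk1 hk2
    have hg1' : g⁻¹ • Q = Q := by rw [inv_smul_eq_iff, hg1]
    have hg2' : g⁻¹ • m = m := by rw [inv_smul_eq_iff, hg2]
    obtain ⟨y, hy1, hy2⟩ := hB1 (g⁻¹ * k) (by rw [mul_smul, hk1, hg1']) (by rw [mul_smul, hk2, hg2'])
    rw [hBg g _ hg2] at hy1 hy2
    rw [mul_one] at hy1
    rw [mul_inv_cancel_left] at hy2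
    exact ⟨_, hy1, hy2⟩
  -- the block of `1`
  have hxB : ¬ B 1 x := by
    rintro ⟨-, h1⟩
    rw [inv_one, one_smul] at h1
    exact hxα h1
  have hoB : B 1 o := ⟨ho, by rw [inv_one, one_smul, hoα]⟩
  -- a second point
  obtain ⟨o', ho'B, hoo'⟩ : ∃ o', B 1 o' ∧ o ≠ o' := by
    by_contra hcon
    push Not at hcon
    obtain ⟨g, hg1, hg2, hg3, -⟩ := htr hQ ho hx hox hQ hx ho hox.symm
    obtain ⟨y, hy1, hy2⟩ := hB1 g hg1 hg2
    have h1 := hcon y hy1
    have hg2' : g⁻¹ • m = m := by rw [inv_smul_eq_iff, hg2]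
    rw [hBg g⁻¹ g hg2', inv_mul_cancel] at hy2
    have h2 := hcon _ hy2
    rw [h1, eq_inv_smul_iff, ← h1, hg3] at h2
    exact hox h2.symm
  have ho'm := ho'B.1
  -- blocks through two points
  have hB5 : ∀ y z, inc y m → inc z m → y ≠ z → ∃ g : H, g • Q = Q ∧ g • m = m ∧ B g y ∧ B g z := by
    intro y z hy hz hyz
    obtain ⟨g, hg1, hg2, hg3, hg4⟩ := htr hQ ho ho'm hoo' hQ hy hz hyz
    refine ⟨g, hg1, hg2, ?_, ?_⟩
    · have := (hBg g 1 hg2 o).1 hoB
      rwa [mul_one, hg3] at this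
    · have := (hBg g 1 hg2 o').1 ho'B
      rwa [mul_one, hg4] at this
  -- counting
  have hfinP := Fintype.ofFinite P
  let s : H → Finset P := fun g => Finset.univ.filter (fun y => B g y)
  have hs : ∀ g y, y ∈ s g ↔ B g y := fun g y => by simp [s]
  have hscard : ∀ g : H, g • m = m → (s g).card = (s 1).card := by
    intro g hg
    have hg' : g⁻¹ • m = m := by rw [inv_smul_eq_iff, hg]
    refine Finset.card_bij' (fun y _ => g⁻¹ • y) (fun y _ => g • y) ?_ ?_ ?_ ?_
    · intro y hy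
      rw [hs] at hy ⊢
      rw [hBg g⁻¹ g hg', inv_mul_cancel] at hy
      exact hy
    · intro y hy
      rw [hs] at hy ⊢
      rw [hBg g 1 hg, mul_one] at hy
      exact hy
    · intro y _
      exact smul_inv_smul _ _
    · intro y _
      exact inv_smul_smul _ _
  -- the blocks through `x` and the points of the first block
  have hchoice : ∀ y, B 1 y → ∃ g : H, g • Q = Q ∧ g • m = m ∧ B g x ∧ B g y := by
    intro y hy
    exact hB5 x y hx hy.1 (by rintro rfl; exact hxB hy)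
  choose! g hg1 hg2 hgx hgy using hchoice
  have hcount : ((Finset.univ.filter (fun y => inc y m)).erase x).card = (s 1).card * ((s 1).card - 1) := by
    have h1 : (Finset.univ.filter (fun y => inc y m)).erase x = (s 1).biUnion (fun y => (s (g y)).erase x) := by
      ext z
      simp only [Finset.mem_erase, Finset.mem_filter, Finset.mem_univ, true_and, Finset.mem_biUnion, hs]
      constructor
      · rintro ⟨hzx, hz⟩
        obtain ⟨k, hk1, hk2, hkx, hkz⟩ := hB5 x z hx hz (Ne.symm hzx)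
        obtain ⟨y, hy1, hy2⟩ := hB1 k hk1 hk2
        refine ⟨y, hy1, hzx, ?_⟩
        have hyx : x ≠ y := by
          rintro rfl
          exact hxB hy1
        exact (hB3 k (g y) hk1 hk2 (hg1 y hy1) (hg2 y hy1) x y hyx hkx (hgx y hy1) hy2 (hgy y hy1) z).1 hkz
      · rintro ⟨y, hy, hzx, hz⟩
        exact ⟨hzx, hz.1⟩
    rw [h1, Finset.card_biUnion]
    · rw [Finset.sum_congr rfl (g := fun _ => (s 1).card - 1), Finset.sum_const, smul_eq_mul]
      intro y hy
      rw [hs] at hy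
      rw [Finset.card_erase_of_mem ((hs _ _).2 (hgx y hy)), hscard _ (hg2 y hy)]
    · intro y hy y' hy' hne
      rw [Finset.mem_coe, hs] at hy hy'
      rw [Function.onFun, Finset.disjoint_left]
      intro z hz hz'
      rw [Finset.mem_erase, hs] at hz hz'
      have h2 := hB3 (g y) (g y') (hg1 y hy) (hg2 y hy) (hg1 y' hy') (hg2 y' hy') x z (Ne.symm hz.1) (hgx y hy)
        (hgx y' hy') hz.2 hz'.2
      have h3 : B (g y) y' := (h2 y').2 (hgy y' hy')
      have hone : (1 : H) • Q = Q := one_smul _ _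
      have hone' : (1 : H) • m = m := one_smul _ _
      exact hxB ((hB3 (g y) 1 (hg1 y hy) (hg2 y hy) hone hone' y y' hne (hgy y hy) hy h3 hy' x).1 (hgx y hy))
  -- the arithmetic
  have hq : (Finset.univ.filter (fun y => inc y m)).card = p ^ k + 1 := by
    rw [← hcard m, Nat.card_eq_fintype_card, Fintype.card_subtype]
  have hxmem : x ∈ Finset.univ.filter (fun y => inc y m) := by simp [hx]
  rw [Finset.card_erase_of_mem hxmem, hq, Nat.add_sub_cancel] at hcount
  have h2le : 2 ≤ (s 1).card := by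
    have h1 : ({o, o'} : Finset P) ⊆ s 1 := by
      intro y hy
      rw [Finset.mem_insert, Finset.mem_singleton] at hy
      rw [hs]
      rcases hy with rfl | rfl
      · exact hoB
      · exact ho'B
    have h2 := Finset.card_le_card h1
    rwa [Finset.card_pair hoo'] at h2
  obtain ⟨f, hf⟩ : ∃ f, f = (s 1).card := ⟨_, rfl⟩
  rw [← hf] at hcount h2le
  have hd1 : f ∣ p ^ k := ⟨_, hcount⟩
  have hd2 : f - 1 ∣ p ^ k := ⟨f, by rw [hcount, mul_comm]⟩
  obtain ⟨i, -, hi⟩ := (Nat.dvd_prime_pow hp).1 hd1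
  obtain ⟨j, -, hj⟩ := (Nat.dvd_prime_pow hp).1 hd2
  have hf2 : f = 2 := by
    rcases Nat.eq_zero_or_pos j with rfl | hj0
    · rw [pow_zero] at hj
      omega
    · exfalso
      have h1 : p ∣ f - 1 := by rw [hj]; exact dvd_pow_self p (by omega)
      have hi0 : i ≠ 0 := by
        rintro rfl
        rw [pow_zero] at hi
        omega
      have h2 : p ∣ f := by rw [hi]; exact dvd_pow_self p hi0
      have h3 := (Nat.dvd_sub h2 h1)
      have h4 : f - (f - 1) = 1 := by omega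
      rw [h4] at h3
      exact hp.one_lt.ne' (Nat.dvd_one.1 h3)
  -- `M` has three points
  have hss : s 1 = (Finset.univ.filter (fun y => inc y m)).erase x := by
    apply Finset.eq_of_subset_of_card_le
    · intro y hy
      rw [hs] at hy
      rw [Finset.mem_erase, Finset.mem_filter]
      exact ⟨by rintro rfl; exact hxB hy, Finset.mem_univ _, hy.1⟩
    · rw [Finset.card_erase_of_mem hxmem, hq, Nat.add_sub_cancel, hcount, ← hf, hf2]
  have h1 : α.pt x ∈ s 1 := by
    rw [hss, Finset.mem_erase, Finset.mem_filter]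
    exact ⟨hxα, Finset.mem_univ _, hαx⟩
  rw [hs] at h1
  obtain ⟨-, h1⟩ := h1
  rw [inv_one, one_smul] at h1
  exact hxα (α.inj h1)

end

end Cfsg.Agent.H772.Cls
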