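import Cfsg.Agent.H772.Cls.Res2
import Cfsg.Agent.FixBN.Par

/-!
# S2451, helper772: the action on a residue through the projection on a parallel residue
-/

set_option autoImplicit false
set_option linter.unusedSectionVars false

open scoped Pointwise

namespace Cfsg.Agent.H772.Cls

open Cfsg.Agent.Tits.Core Cfsg.Agent.Tits.Core.Bldg Cfsg.Agent.Tits.Exchange Cfsg.Agent.Tits Cfsg.Agent.FixBN
open Cfsg.Agent.FixBN.Cox
open Cfsg.Agent.H197.Cls

variable {I : Type*} {M : CoxeterMatrix I} {W : Type*} [Group W] {cs : CoxeterSystem M W} {C : Type*}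

local prefix:100 "ℓ" => cs.length

variable {Δ : Bldg cs C}

/-! ### Parallel residues -/

section

variable {K : Set I} {u : W} (h : Par cs K K u)

include h

theorem proj_of_δ {c D D' : C} (hD : D ∈ Δ.Res K c) (e : Δ.δ D D' = u) : Δ.proj K c D' = D := by
  apply Δ.proj_eq_of_isProj
  refine Δ.isProj_of_isMinR hD ?_
  rw [Δ.symm D D', e]
  exact (isMinR_inv_iff cs).2 h.minL

theorem exists_par {c c' D : C} (hcc : Δ.δ c c' = u) (hD : D ∈ Δ.Res K c) : ∃ D' ∈ Δ.Res K c', Δ.δ D D' = u :=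
  par_transfer h hcc hD

theorem δ_proj_par {c c' D' : C} (hcc : Δ.δ c c' = u) (hD : D' ∈ Δ.Res K c') : Δ.δ (Δ.proj K c D') D' = u := by
  obtain ⟨D, hD1, hD2⟩ := par_transfer h.symm (x := c') (y := c) (by rw [Δ.symm c c', hcc]) hD
  have e : Δ.δ D D' = u := by rw [Δ.symm D' D, hD2, inv_inv]
  rw [proj_of_δ h hD1 e, e]

theorem δ_proj_proj {c c' D' E' : C} (hcc : Δ.δ c c' = u) (hD : D' ∈ Δ.Res K c') (hE : E' ∈ Δ.Res K c') :
    Δ.δ (Δ.proj K c D') (Δ.proj K c E') * u = u * Δ.δ D' E' := by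
  refine par_δ h (δ_proj_par h hcc hD) (δ_proj_par h hcc hE) ?_ ?_
  · exact Δ.δ_mem_of_mem_Res (Δ.proj_mem K c D') (Δ.proj_mem K c E')
  · exact Δ.δ_mem_of_mem_Res hD hE

theorem proj_inj {c c' D' E' : C} (hcc : Δ.δ c c' = u) (hD : D' ∈ Δ.Res K c') (hE : E' ∈ Δ.Res K c')
    (he : Δ.proj K c D' = Δ.proj K c E') : D' = E' := by
  have h1 := δ_proj_proj h hcc hD hE
  rw [he, Δ.δ_self, one_mul] at h1
  exact Δ.eq_of_δ_eq_one (mul_left_cancel (h1.symm.trans (mul_one u).symm))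

end

/-- the map of the residue -/
noncomputable def psi {G : Type*} [SMul G C] (Δ : Bldg cs C) (K : Set I) (c : C) (x : G) (D : C) : C :=
  Δ.proj K c (x • D)

section

variable {G : Type*} [Group G] [MulAction G C] {p : ℕ} (S : Sys Δ G p)

include S

variable {K : Set I} {u : W} (h : Par cs K K u) {c c' : C} (hcc : Δ.δ c c' = u) {x : G} (hx : x • c ∈ Δ.Res K c')

include hx

theorem smul_mem' {D : C} (hD : D ∈ Δ.Res K c) : x • D ∈ Δ.Res K c' :=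
  Δ.mem_Res_trans hx (S.smul_mem_Res hD)

omit S hx in
theorem psi_mem (D : C) : psi Δ K c x D ∈ Δ.Res K c := Δ.proj_mem K c _

include h hcc

theorem δ_psi {D : C} (hD : D ∈ Δ.Res K c) : Δ.δ (psi Δ K c x D) (x • D) = u :=
  δ_proj_par h hcc (smul_mem' S hx hD)

theorem disp_eq {D : C} (hD : D ∈ Δ.Res K c) : Δ.δ D (x • D) = Δ.δ D (psi Δ K c x D) * u :=
  Δ.δ_mul_of rfl (δ_psi S h hcc hx hD) (h.minL _ (Δ.δ_mem_of_mem_Res hD (psi_mem D)))

theorem psi_iso {D E : C} (hD : D ∈ Δ.Res K c) (hE : E ∈ Δ.Res K c) :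
    Δ.δ (psi Δ K c x D) (psi Δ K c x E) * u = u * Δ.δ D E := by
  have h1 := δ_proj_proj h hcc (smul_mem' S hx hD) (smul_mem' S hx hE)
  rw [S.iso] at h1
  exact h1

theorem psi_eq_iff {y : G} (hy : y • c ∈ Δ.Res K c') {D E : C} (hD : D ∈ Δ.Res K c) (hE : E ∈ Δ.Res K c) :
    psi Δ K c x D = psi Δ K c y E ↔ x • D = y • E := by
  constructor
  · intro he
    exact proj_inj h hcc (smul_mem' S hx hD) (smul_mem' S hy hE) he
  · intro he
    rw [psi, psi, he]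

omit hx in
/-- conjugation -/
theorem psi_conj {y g : G} (hy : y • c ∈ Δ.Res K c') (hg : g • Δ.Res K c = Δ.Res K c)
    {D : C} (hD : D ∈ Δ.Res K c) :
    psi Δ K c (g * y * g⁻¹) D = g • psi Δ K c y (g⁻¹ • D) := by
  have h1 : g⁻¹ • D ∈ Δ.Res K c := by
    rw [← hg] at hD
    obtain ⟨E, hE, rfl⟩ := hD
    show g⁻¹ • g • E ∈ _
    rwa [inv_smul_smul]
  have h2 := δ_psi S h hcc hy h1
  have h3 : Δ.δ (g • psi Δ K c y (g⁻¹ • D)) ((g * y * g⁻¹) • D) = u := by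
    rw [mul_smul, mul_smul, S.iso, h2]
  refine proj_of_δ h ?_ h3
  rw [← hg]
  exact Set.smul_mem_smul_set (psi_mem _)

end

/-! ### Collineations -/

theorem image_surj [Finite C] {K : Set I} {c : C} {ψ : C → C} (hR : ∀ D ∈ Δ.Res K c, ψ D ∈ Δ.Res K c)
    (hinj : ∀ D ∈ Δ.Res K c, ∀ E ∈ Δ.Res K c, ψ D = ψ E → D = E) {E : C} (hE : E ∈ Δ.Res K c) :
    ∃ D ∈ Δ.Res K c, ψ D = E := by
  let f : Δ.Res K c → Δ.Res K c := fun D => ⟨ψ D.1, hR D.1 D.2⟩
  have hf : Function.Injective f := fun D E h => Subtype.ext (hinj _ D.2 _ E.2 (congrArg Subtype.val h))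
  obtain ⟨D, hD⟩ := Finite.surjective_of_injective hf ⟨E, hE⟩
  exact ⟨D.1, D.2, congrArg Subtype.val hD⟩

/-- a map of the residue respecting `δ` up to a permutation `τ` of the types maps `k`-panels to `τ k`-panels -/
theorem image_Pan [Finite C] {K : Set I} {c : C} {ψ : C → C}
    (hR : ∀ D ∈ Δ.Res K c, ψ D ∈ Δ.Res K c) {k k' : I} (hk : k ∈ K) (hk' : k' ∈ K)
    (hinj : ∀ D ∈ Δ.Res K c, ∀ E ∈ Δ.Res K c, ψ D = ψ E → D = E)
    (hiso : ∀ D ∈ Δ.Res K c, ∀ E ∈ Δ.Res K c, Δ.δ D E = cs.simple k ↔ Δ.δ (ψ D) (ψ E) = cs.simple k') {D : C}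
    (hD : D ∈ Δ.Res K c) : ψ '' Δ.Pan k D = Δ.Pan k' (ψ D) := by
  have hsub : ∀ E ∈ Δ.Pan k D, E ∈ Δ.Res K c := fun E hE => Δ.mem_Res_trans hD (Δ.Pan_subset_Res hk D hE)
  ext E
  constructor
  · rintro ⟨E, hE, rfl⟩
    rcases hE with rfl | hE
    · exact Δ.self_mem_Pan _ _
    · exact Δ.mem_Pan_of_δ ((hiso D hD E (hsub E (Δ.mem_Pan_of_δ hE))).1 hE)
  · intro hE
    rcases hE with rfl | hE
    · exact ⟨D, Δ.self_mem_Pan _ _, rfl⟩
    · have hER : E ∈ Δ.Res K c := Δ.mem_Res_trans (hR D hD) (Δ.Pan_subset_Res hk' _ (Δ.mem_Pan_of_δ hE))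
      obtain ⟨D1, hD1, rfl⟩ := image_surj hR hinj hER
      exact ⟨D1, Δ.mem_Pan_of_δ ((hiso D hD D1 hD1).2 hE), rfl⟩

/-- the collineation given by a map of the residue -/
def colOf [Finite C] [F : OppRes.Cox cs] {i j : I} (hij : i ≠ j) {c : C} (ψ : C → C)
    (hR : ∀ D ∈ Δ.Res {i, j} c, ψ D ∈ Δ.Res {i, j} c)
    (hiso : ∀ D ∈ Δ.Res {i, j} c, ∀ E ∈ Δ.Res {i, j} c, Δ.δ (ψ D) (ψ E) = Δ.δ D E) (hM : M i j = 3)
    (h1 : ∀ D ∈ Δ.Res {i, j} c, Δ.δ D (ψ D) ≠ cs.simple i * cs.simple j)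
    (h2 : ∀ D ∈ Δ.Res {i, j} c, Δ.δ D (ψ D) ≠ cs.simple j * cs.simple i) : Col (Inc Δ i j c) :=
  have hinj : ∀ D ∈ Δ.Res {i, j} c, ∀ E ∈ Δ.Res {i, j} c, ψ D = ψ E → D = E := by
    intro D hD E hE he
    have h3 := hiso D hD E hE
    rw [he, Δ.δ_self] at h3
    exact Δ.eq_of_δ_eq_one h3.symm
  have hP : ∀ k ∈ ({i, j} : Set I), ∀ D ∈ Δ.Res {i, j} c, ψ '' Δ.Pan k D = Δ.Pan k (ψ D) := fun k hk D hD =>
    image_Pan hR hk hk hinj (fun D hD E hE => by rw [hiso D hD E hE]) hD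
  have hM' : M j i = 3 := by rw [M.symmetric]; exact hM
  { pt := fun s => ⟨ψ '' s.1, by
      obtain ⟨s, D, hD, rfl⟩ := s
      exact ⟨ψ D, hR D hD, hP j (by simp) D hD⟩⟩
    ln := fun s => ⟨ψ '' s.1, by
      obtain ⟨s, D, hD, rfl⟩ := s
      exact ⟨ψ D, hR D hD, hP i (by simp) D hD⟩⟩
    map := by
      rintro s l ⟨D, hD, hDl⟩
      exact ⟨ψ D, ⟨D, hD, rfl⟩, ⟨D, hDl, rfl⟩⟩
    inj := by
      intro s t hst
      have h3 : ψ '' s.1 = ψ '' t.1 := congrArg Subtype.val hst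
      obtain ⟨D, hD⟩ := s.exists_mem
      have h4 : ψ D ∈ ψ '' t.1 := by rw [← h3]; exact ⟨D, hD, rfl⟩
      obtain ⟨E, hE, he⟩ := h4
      have h5 := hinj E (t.mem_Res hE) D (s.mem_Res hD) he
      rw [h5] at hE
      exact Pt.ext' hD hE
    F1 := by
      rintro s l hne ⟨D, hD, hDl⟩ ⟨E, hE, hEl⟩
      have hDR := s.mem_Res hD
      have hψ : ψ D ∈ (ψ '' s.1) := ⟨D, hD, rfl⟩
      by_contra hcon
      apply h1 D hDR
      have hDE : D ≠ E := by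
        rintro rfl
        exact hne (Pt.ext' hE hD)
      have hEψ : E ≠ ψ D := by
        intro he
        apply hcon
        refine Ln.ext' (x := ψ D) ⟨D, hDl, rfl⟩ ?_
        rw [← he]
        exact hEl
      have e1 : Δ.δ D E = cs.simple i :=
        Δ.δ_eq_of_mem_Pan (x := D) (Δ.self_mem_Pan i D) (by rw [← l.eq hDl]; exact hEl) hDE
      have e2 : Δ.δ E (ψ D) = cs.simple j := by
        refine Δ.δ_eq_of_mem_Pan (x := E) (Δ.self_mem_Pan j E) ?_ hEψ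
        have h3 : E ∈ ψ '' s.1 := hE
        rw [s.eq hD, hP j (by simp) D hDR] at h3
        exact Δ.mem_Pan_symm h3
      exact Δ.δ_mul_of e1 e2 (by rw [len_ij hM, cs.length_simple, cs.length_simple])
    F2 := by
      rintro s l hne ⟨D, hD, hDl⟩ ⟨E, hE, hEl⟩
      have hDR := s.mem_Res hD
      by_contra hcon
      apply h2 D hDR
      have hDE : D ≠ E := by
        rintro rfl
        exact hne (Ln.ext' hEl hDl)
      have hEψ : E ≠ ψ D := by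
        intro he
        apply hcon
        refine Pt.ext' (x := ψ D) ⟨D, hD, rfl⟩ ?_
        rw [← he]
        exact hE
      have e1 : Δ.δ D E = cs.simple j :=
        Δ.δ_eq_of_mem_Pan (x := D) (Δ.self_mem_Pan j D) (by rw [← s.eq hD]; exact hE) hDE
      have e2 : Δ.δ E (ψ D) = cs.simple i := by
        refine Δ.δ_eq_of_mem_Pan (x := E) (Δ.self_mem_Pan i E) ?_ hEψ
        have h3 : E ∈ ψ '' l.1 := hEl
        rw [l.eq hDl, hP i (by simp) D hDR] at h3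
        exact Δ.mem_Pan_symm h3
      exact Δ.δ_mul_of e1 e2 (by rw [len_ij hM', cs.length_simple, cs.length_simple]) }

end Cfsg.Agent.H772.Cls
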