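import Cfsg.Agent.H197.Cls.SSet
import Cfsg.Agent.H772.Cls.Plane

/-!
# S2451, helper772: the projective plane of a residue of type `{i, j}`, `m(i, j) = 3`

The points are the `j`-panels, the lines are the `i`-panels of the residue.
-/

set_option autoImplicit false
set_option linter.unusedSectionVars false

open scoped Pointwise

namespace Cfsg.Agent.H772.Cls

open Cfsg.Agent.Tits.Core Cfsg.Agent.Tits.Core.Bldg Cfsg.Agent.Tits.Exchange Cfsg.Agent.Tits Cfsg.Agent.FixBN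
open Cfsg.Agent.H197.Cls

variable {I : Type*} {M : CoxeterMatrix I} {W : Type*} [Group W] {cs : CoxeterSystem M W} {C : Type*}

local prefix:100 "ℓ" => cs.length

variable {Δ : Bldg cs C}

/-! ### Words -/

theorem ne_ij_ji [F : OppRes.Cox cs] {i j : I} (hM : M i j = 3) :
    cs.simple i * cs.simple j ≠ cs.simple j * cs.simple i := by
  obtain ⟨l2, l3, hb, hij⟩ := len_jij (cs := cs) hM
  intro h
  rw [mul_assoc, h, ← mul_assoc, cs.simple_mul_simple_self, one_mul] at l3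
  rw [cs.length_simple] at l3
  omega

theorem len_ij [F : OppRes.Cox cs] {i j : I} (hM : M i j = 3) : ℓ (cs.simple i * cs.simple j) = 2 := by
  rw [M.symmetric] at hM
  exact (len_jij (cs := cs) hM).1

/-- a pair of `i`, `j` panels meets in at most one chamber -/
theorem eq_of_Pan_Pan [F : OppRes.Cox cs] {i j : I} (hij : i ≠ j) {x y : C} (h1 : y ∈ Δ.Pan i x) (h2 : y ∈ Δ.Pan j x) :
    y = x := by
  rcases h1 with h1 | h1
  · exact h1
  · rcases h2 with h2 | h2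
    · exact h2
    · rw [h1] at h2
      exact absurd (F.inj h2) hij

section

variable {G : Type*} [Group G] [MulAction G C] {p : ℕ} (S : Sys Δ G p)

include S

/-- two chambers of the residue are joined by a gallery of type `j i j` (with repetitions) -/
theorem exists_gal [F : OppRes.Cox cs] {i j : I} (hM : M i j = 3) {c x y : C} (hx : x ∈ Δ.Res {i, j} c)
    (hy : y ∈ Δ.Res {i, j} c) : ∃ x' ∈ Δ.Pan j x, ∃ y' ∈ Δ.Pan j y, y' ∈ Δ.Pan i x' := by
  have hM' : M j i = 3 := by rw [M.symmetric]; exact hM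
  obtain ⟨x', hx'⟩ := Δ.exists_isProj {j} x y
  have hx'P : x' ∈ Δ.Pan j x := by rw [Pan_eq_Res]; exact hx'.mem
  have h1 := (isMinR_iff cs).1 hx'.isMinR j rfl
  have h2 : ℓ (Δ.δ x' y) < ℓ (cs.simple j * Δ.δ x' y) := by
    rw [← cs.length_inv, ← cs.length_inv (Δ.δ y x' * _), mul_inv_rev, cs.inv_simple, ← Δ.symm y x'] at h1
    exact h1
  have h3 : Δ.δ x' y ∈ WJ cs {j, i} := by
    rw [Set.pair_comm]
    refine Δ.δ_mem_of_mem_Res (Δ.mem_Res_trans hx ?_) hy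
    exact Δ.Pan_subset_Res (by simp) x hx'P
  refine ⟨x', hx'P, ?_⟩
  rcases cases_m3 S hM' h3 h2 with h4 | h4 | h4
  · exact ⟨y, Δ.self_mem_Pan j y, by rw [Δ.eq_of_δ_eq_one h4]; exact Δ.self_mem_Pan i _⟩
  · exact ⟨y, Δ.self_mem_Pan j y, Δ.mem_Pan_of_δ h4⟩
  · obtain ⟨y', h5, h6⟩ := Δ.exists_between h4 (by rw [len_ij hM, cs.length_simple, cs.length_simple])
    exact ⟨y', Δ.mem_Pan_symm (Δ.mem_Pan_of_δ h6), Δ.mem_Pan_of_δ h5⟩

end

/-! ### Points and lines -/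

/-- the points: the `j`-panels -/
def Pt (Δ : Bldg cs C) (i j : I) (c : C) : Type _ := {s : Set C // ∃ x ∈ Δ.Res {i, j} c, s = Δ.Pan j x}

/-- the lines: the `i`-panels -/
def Ln (Δ : Bldg cs C) (i j : I) (c : C) : Type _ := {s : Set C // ∃ x ∈ Δ.Res {i, j} c, s = Δ.Pan i x}

/-- incidence -/
def Inc (Δ : Bldg cs C) (i j : I) (c : C) (p : Pt Δ i j c) (l : Ln Δ i j c) : Prop := ∃ x, x ∈ p.1 ∧ x ∈ l.1

instance [Finite C] {i j : I} {c : C} : Finite (Pt Δ i j c) := Subtype.finite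

/-- the point of a chamber -/
def mkPt {i j : I} {c x : C} (hx : x ∈ Δ.Res {i, j} c) : Pt Δ i j c := ⟨Δ.Pan j x, x, hx, rfl⟩

/-- the line of a chamber -/
def mkLn {i j : I} {c x : C} (hx : x ∈ Δ.Res {i, j} c) : Ln Δ i j c := ⟨Δ.Pan i x, x, hx, rfl⟩

theorem Pt.eq {i j : I} {c x : C} (p : Pt Δ i j c) (hx : x ∈ p.1) : p.1 = Δ.Pan j x := by
  obtain ⟨s, y, hy, rfl⟩ := p
  exact (Δ.Pan_eq_of_mem hx).symm

theorem Ln.eq {i j : I} {c x : C} (l : Ln Δ i j c) (hx : x ∈ l.1) : l.1 = Δ.Pan i x := by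
  obtain ⟨s, y, hy, rfl⟩ := l
  exact (Δ.Pan_eq_of_mem hx).symm

theorem Pt.mem_Res {i j : I} {c x : C} (p : Pt Δ i j c) (hx : x ∈ p.1) : x ∈ Δ.Res {i, j} c := by
  obtain ⟨s, y, hy, rfl⟩ := p
  exact Δ.mem_Res_trans hy (Δ.Pan_subset_Res (by simp) y hx)

theorem Ln.mem_Res {i j : I} {c x : C} (l : Ln Δ i j c) (hx : x ∈ l.1) : x ∈ Δ.Res {i, j} c := by
  obtain ⟨s, y, hy, rfl⟩ := l
  exact Δ.mem_Res_trans hy (Δ.Pan_subset_Res (by simp) y hx)

theorem Pt.ext' {i j : I} {c x : C} {p q : Pt Δ i j c} (hp : x ∈ p.1) (hq : x ∈ q.1) : p = q :=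
  Subtype.ext (by rw [p.eq hp, q.eq hq])

theorem Ln.ext' {i j : I} {c x : C} {p q : Ln Δ i j c} (hp : x ∈ p.1) (hq : x ∈ q.1) : p = q :=
  Subtype.ext (by rw [p.eq hp, q.eq hq])

theorem Pt.exists_mem {i j : I} {c : C} (p : Pt Δ i j c) : ∃ x, x ∈ p.1 := by
  obtain ⟨s, y, hy, rfl⟩ := p
  exact ⟨y, Δ.self_mem_Pan j y⟩

theorem Ln.exists_mem {i j : I} {c : C} (p : Ln Δ i j c) : ∃ x, x ∈ p.1 := by
  obtain ⟨s, y, hy, rfl⟩ := p
  exact ⟨y, Δ.self_mem_Pan i y⟩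

section

variable {G : Type*} [Group G] [MulAction G C] {p : ℕ} (S : Sys Δ G p)

include S

theorem isPl [F : OppRes.Cox cs] (hth : Δ.Thick) {i j : I} (hM : M i j = 3) (c : C) : Pl (Inc Δ i j c) := by
  have hM' : M j i = 3 := by rw [M.symmetric]; exact hM
  have hij : i ≠ j := (len_jij (cs := cs) hM).2.2.2
  refine ⟨?_, ?_, ?_, ?_, ?_⟩
  · intro p q
    obtain ⟨x, hx⟩ := p.exists_mem
    obtain ⟨y, hy⟩ := q.exists_mem
    obtain ⟨x', hx', y', hy', h⟩ := exists_gal S hM (p.mem_Res hx) (q.mem_Res hy)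
    have h1 : x' ∈ p.1 := by rw [p.eq hx]; exact hx'
    have h2 : y' ∈ q.1 := by rw [q.eq hy]; exact hy'
    exact ⟨mkLn (p.mem_Res h1), ⟨x', h1, Δ.self_mem_Pan i x'⟩, ⟨y', h2, h⟩⟩
  · intro p q
    obtain ⟨x, hx⟩ := p.exists_mem
    obtain ⟨y, hy⟩ := q.exists_mem
    obtain ⟨x', hx', y', hy', h⟩ := exists_gal (i := j) (j := i) (c := c) S hM'
      (by rw [Set.pair_comm]; exact p.mem_Res hx) (by rw [Set.pair_comm]; exact q.mem_Res hy)
    have h1 : x' ∈ p.1 := by rw [p.eq hx]; exact hx'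
    have h2 : y' ∈ q.1 := by rw [q.eq hy]; exact hy'
    exact ⟨mkPt (p.mem_Res h1), ⟨x', Δ.self_mem_Pan j x', h1⟩, ⟨y', h, h2⟩⟩
  · rintro p q l m ⟨x, hxp, hxl⟩ ⟨y, hyq, hyl⟩ ⟨z, hzp, hzm⟩ ⟨t, htq, htm⟩
    by_contra hcon
    push Not at hcon
    obtain ⟨h1, h2⟩ := hcon
    have hxy : x ≠ y := by
      rintro rfl
      exact h1 (Pt.ext' hxp hyq)
    have hxz : x ≠ z := by
      rintro rfl
      exact h2 (Ln.ext' hxl hzm)
    have hzt : z ≠ t := by
      rintro rfl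
      exact h1 (Pt.ext' hzp htq)
    have hyt : y ≠ t := by
      rintro rfl
      exact h2 (Ln.ext' hyl htm)
    have e1 : Δ.δ x y = cs.simple i := Δ.δ_eq_of_mem_Pan (x := x) (Δ.self_mem_Pan i x) (by rw [← l.eq hxl]; exact hyl) hxy
    have e2 : Δ.δ x z = cs.simple j := Δ.δ_eq_of_mem_Pan (x := x) (Δ.self_mem_Pan j x) (by rw [← p.eq hxp]; exact hzp) hxz
    have e3 : Δ.δ z t = cs.simple i := Δ.δ_eq_of_mem_Pan (x := z) (Δ.self_mem_Pan i z) (by rw [← m.eq hzm]; exact htm) hzt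
    have e4 : Δ.δ y t = cs.simple j := Δ.δ_eq_of_mem_Pan (x := y) (Δ.self_mem_Pan j y) (by rw [← q.eq hyq]; exact htq) hyt
    have e5 := Δ.δ_mul_of e1 e4 (by rw [len_ij hM, cs.length_simple, cs.length_simple])
    have e6 := Δ.δ_mul_of e2 e3 (by rw [len_ij hM', cs.length_simple, cs.length_simple])
    exact ne_ij_ji hM (by rw [← e5, ← e6])
  · intro l p q
    obtain ⟨x, hx⟩ := l.exists_mem
    classical
    let f : Pt Δ i j c → C := fun p => if h : ∃ y, y ∈ p.1 ∧ y ∈ l.1 then h.choose else x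
    have hf : ∀ p : Pt Δ i j c, ∀ y, y ∈ p.1 → y ∈ l.1 → y = f p := by
      intro p y hyp hyl
      have hex : ∃ y, y ∈ p.1 ∧ y ∈ l.1 := ⟨y, hyp, hyl⟩
      have h1 : f p = hex.choose := dif_pos hex
      obtain ⟨h2, h3⟩ := hex.choose_spec
      rw [h1]
      exact eq_of_Pan_Pan hij (by rw [← l.eq h3]; exact hyl) (by rw [← p.eq h2]; exact hyp)
    obtain ⟨t, ht, ht1, ht2⟩ := hth.exists_third (i := i) (x := x) (f p) (f q)
    have htl : t ∈ l.1 := by rw [l.eq hx]; exact ht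
    refine ⟨mkPt (l.mem_Res htl), ⟨t, Δ.self_mem_Pan j t, htl⟩, ?_, ?_⟩
    · rintro rfl
      exact ht1 (hf _ t (Δ.self_mem_Pan j t) htl)
    · rintro rfl
      exact ht2 (hf _ t (Δ.self_mem_Pan j t) htl)
  · intro l
    obtain ⟨x, hx⟩ := l.exists_mem
    obtain ⟨y, hy⟩ := Δ.exists_δ x (cs.simple j * cs.simple i)
    have hyR : y ∈ Δ.Res {i, j} c := by
      refine Δ.mem_Res_trans (l.mem_Res hx) ?_
      rw [Bldg.mem_Res, hy]
      exact mul_mem (simple_mem_WJ cs (by simp)) (simple_mem_WJ cs (by simp))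
    refine ⟨mkPt hyR, ?_⟩
    rintro ⟨z, hz, hzl⟩
    have h1 : z ∈ Δ.Pan i x := by rw [← l.eq hx]; exact hzl
    have h2 : z ∈ Δ.Pan j y := hz
    have l2 := len_ij (cs := cs) hM'
    by_cases hzy : z = y
    · rw [hzy] at h1
      rcases h1 with h1 | h1
      · rw [h1, Δ.δ_self] at hy
        rw [← hy, cs.length_one] at l2
        omega
      · rw [h1] at hy
        rw [← hy, cs.length_simple] at l2
        omega
    · have h3 : Δ.δ z y = cs.simple j := Δ.δ_eq_of_mem_Pan h2 (Δ.self_mem_Pan j y) hzy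
      rcases h1 with h1 | h1
      · rw [← h1, h3] at hy
        rw [← hy, cs.length_simple] at l2
        omega
      · have h4 := Δ.δ_mul_of h1 h3 (by rw [len_ij hM, cs.length_simple, cs.length_simple])
        rw [hy] at h4
        exact ne_ij_ji hM h4.symm

/-- the number of chambers of a panel -/
theorem exists_card_Pan [hp : Fact p.Prime] [F : OppRes.Cox cs] [Finite C] (hth : Δ.Thick) (i : I) :
    ∃ k, 0 < k ∧ ∀ x, Nat.card (Δ.Pan i x) = p ^ k + 1 := by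
  classical
  rcases isEmpty_or_nonempty C with hC | ⟨⟨x0⟩⟩
  · exact ⟨1, one_pos, fun x => (hC.false x).elim⟩
  have key : ∃ k, Nat.card (Δ.Pan i x0) = p ^ k + 1 := by
    obtain ⟨y, -, -, hy, -⟩ := hth x0 i
    have hyP : y ∈ Δ.Pan i x0 := Δ.mem_Pan_of_δ hy
    have horb : Δ.Pan i x0 = insert x0 (MulAction.orbit (S.U x0) y) := by
      ext z
      constructor
      · rintro (rfl | hz)
        · exact Set.mem_insert _ _
        · obtain ⟨u, hu, huz⟩ := S.exists_move (x := x0) (z := y) (z' := z) (by rw [hy, hz])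
          exact Set.mem_insert_of_mem _ ⟨⟨u, hu⟩, huz⟩
      · rintro (rfl | ⟨⟨u, hu⟩, rfl⟩)
        · exact Δ.self_mem_Pan i _
        · have h1 := smul_mem_Pan S (g := u) hyP
          rw [S.fix x0 u hu] at h1
          exact h1
    have hnot : x0 ∉ MulAction.orbit (S.U x0) y := by
      rintro ⟨⟨u, hu⟩, h⟩
      have h1 : u • y = x0 := h
      have h2 : y = x0 := smul_left_cancel u (by rw [h1, S.fix x0 u hu])
      exact Δ.ne_of_δ_simple hy h2.symm
    obtain ⟨k, hk⟩ := (S.isP x0).card_orbit y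
    refine ⟨k, ?_⟩
    rw [Nat.card_coe_set_eq, horb, Set.ncard_insert_of_notMem hnot, ← Nat.card_coe_set_eq, hk]
  obtain ⟨k, hk⟩ := key
  have hall : ∀ x, Nat.card (Δ.Pan i x) = p ^ k + 1 := by
    intro x
    obtain ⟨g, rfl⟩ := exists_smul S hth x0 x
    rw [← hk, ← smul_Pan S, Nat.card_coe_set_eq, Nat.card_coe_set_eq, Set.ncard_smul_set]
  refine ⟨k, ?_, hall⟩
  rcases Nat.eq_zero_or_pos k with rfl | h
  · exfalso
    obtain ⟨y, z, hyz, hy, hz⟩ := hth x0 i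
    have h1 : ({x0, y, z} : Set C) ⊆ Δ.Pan i x0 := by
      rintro t (rfl | rfl | rfl)
      · exact Δ.self_mem_Pan i _
      · exact Δ.mem_Pan_of_δ hy
      · exact Δ.mem_Pan_of_δ hz
    have h2 := Set.ncard_le_ncard h1 (Set.toFinite _)
    have h3 : ({x0, y, z} : Set C).ncard = 3 := Set.ncard_eq_three.2
      ⟨x0, y, z, Δ.ne_of_δ_simple hy, Δ.ne_of_δ_simple hz, hyz, rfl⟩
    rw [h3, ← Nat.card_coe_set_eq, hk, pow_zero] at h2
    omega
  · exact h

end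

/-- the points of a line -/
theorem card_line [F : OppRes.Cox cs] {i j : I} (hij : i ≠ j) {c : C} (l : Ln Δ i j c) :
    Nat.card {x : Pt Δ i j c // Inc Δ i j c x l} = Nat.card l.1 := by
  symm
  refine Nat.card_eq_of_bijective (fun x => ⟨mkPt (l.mem_Res x.2), x.1, Δ.self_mem_Pan j _, x.2⟩) ⟨?_, ?_⟩
  · rintro ⟨x, hx⟩ ⟨y, hy⟩ h
    have h1 : Δ.Pan j x = Δ.Pan j y := congrArg (fun z => z.1.1) h
    apply Subtype.ext
    refine eq_of_Pan_Pan hij (by rw [← l.eq hy]; exact hx) ?_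
    rw [← h1]
    exact Δ.self_mem_Pan j x
  · rintro ⟨q, x, hx, hxl⟩
    exact ⟨⟨x, hxl⟩, Subtype.ext (Pt.ext' (x := x) (Δ.self_mem_Pan j x) hx)⟩

end Cfsg.Agent.H772.Cls
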