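import Cfsg.Agent.H772.Cls.A3
import Cfsg.Agent.H772.Cls.StarD
import Cfsg.Agent.H197.Cls.Roles

/-!
# S2451, helper772: the `A₃`-star

`star_e` : `m(i, j) = m(j, k) = 3`, `m(i, k) = 2`, `u` commutes with `s_i`, `s_j`, `s_k` and is minimal: then
`u s_i s_k` is not in `Dis Δ a b`.
-/

set_option autoImplicit false
set_option linter.unusedSectionVars false

open scoped Pointwise

namespace Cfsg.Agent.H772.Cls

open Cfsg.Agent.Tits.Core Cfsg.Agent.Tits.Core.Bldg Cfsg.Agent.Tits.Exchange Cfsg.Agent.Tits Cfsg.Agent.FixBN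
open Cfsg.Agent.FixBN.Cox
open Cfsg.Agent.H197.Cls

variable {I : Type*} {M : CoxeterMatrix I} {W : Type*} [Group W] {cs : CoxeterSystem M W} {C : Type*}

local prefix:100 "ℓ" => cs.length

/-- the elements of `W_{ik}`, `m(i, k) = 2` -/
theorem cases4 {i k : I} (hik : M i k = 2) {w : W} (hw : w ∈ WJ cs {i, k}) :
    ∃ e f : W, (e = 1 ∨ e = cs.simple k) ∧ (f = 1 ∨ f = cs.simple i) ∧ w = e * f := by
  have hc : Commute (cs.simple i) (cs.simple k) := comm_of_m2 hik
  have hi := cs.simple_mul_simple_self i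
  have hk := cs.simple_mul_simple_self k
  rw [WJ] at hw
  induction hw using Subgroup.closure_induction with
  | mem x hx =>
    obtain ⟨l, rfl | rfl, rfl⟩ := hx
    · exact ⟨1, _, Or.inl rfl, Or.inr rfl, (one_mul _).symm⟩
    · exact ⟨_, 1, Or.inr rfl, Or.inl rfl, (mul_one _).symm⟩
  | one => exact ⟨1, 1, Or.inl rfl, Or.inl rfl, (one_mul _).symm⟩
  | mul x y _ _ hx hy =>
    obtain ⟨e, f, he, hf, rfl⟩ := hx
    obtain ⟨e', f', he', hf', rfl⟩ := hy
    have hfe : f * e' = e' * f := by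
      rcases hf with rfl | rfl <;> rcases he' with rfl | rfl
      · rfl
      · rw [one_mul, mul_one]
      · rw [one_mul, mul_one]
      · exact hc
    refine ⟨e * e', f * f', ?_, ?_, ?_⟩
    · rcases he with rfl | rfl <;> rcases he' with rfl | rfl
      · left; rw [one_mul]
      · right; rw [one_mul]
      · right; rw [mul_one]
      · left; exact hk
    · rcases hf with rfl | rfl <;> rcases hf' with rfl | rfl
      · left; rw [one_mul]
      · right; rw [one_mul]
      · right; rw [mul_one]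
      · left; exact hi
    · rw [mul_assoc, ← mul_assoc f, hfe]
      group
  | inv x _ hx =>
    obtain ⟨e, f, he, hf, rfl⟩ := hx
    have hfe : f * e = e * f := by
      rcases hf with rfl | rfl <;> rcases he with rfl | rfl
      · rfl
      · rw [one_mul, mul_one]
      · rw [one_mul, mul_one]
      · exact hc
    refine ⟨e⁻¹, f⁻¹, ?_, ?_, ?_⟩
    · rcases he with rfl | rfl
      · left; exact inv_one
      · right; exact cs.inv_simple k
    · rcases hf with rfl | rfl
      · left; exact inv_one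
      · right; exact cs.inv_simple i
    · rw [← hfe, mul_inv_rev]

variable {Δ : Bldg cs C}

theorem exists_mid [F : OppRes.Cox cs] {i k : I} (hik : M i k = 2) {c D : C} (hD : D ∈ Δ.Res {i, k} c) :
    ∃ E ∈ Δ.Pan k c, D ∈ Δ.Pan i E := by
  obtain ⟨e, f, he, hf, h⟩ := cases4 hik hD
  have hki : M k i = 2 := by rw [M.symmetric]; exact hik
  rcases he with rfl | rfl <;> rcases hf with rfl | rfl
  · rw [one_mul] at h
    exact ⟨c, Δ.self_mem_Pan _ _, by rw [Δ.eq_of_δ_eq_one h]; exact Δ.self_mem_Pan _ _⟩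
  · rw [one_mul] at h
    exact ⟨c, Δ.self_mem_Pan _ _, Δ.mem_Pan_of_δ h⟩
  · rw [mul_one] at h
    exact ⟨D, Δ.mem_Pan_of_δ h, Δ.self_mem_Pan _ _⟩
  · obtain ⟨E, h1, h2⟩ := Δ.exists_between h (by rw [len_m2 hki, cs.length_simple, cs.length_simple])
    exact ⟨E, Δ.mem_Pan_of_δ h1, Δ.mem_Pan_of_δ h2⟩

variable {G : Type*} [Group G] [MulAction G C] {p : ℕ} (S : Sys Δ G p)

include S

theorem star_e_aux [hp : Fact p.Prime] [F : OppRes.Cox cs] [Finite C] (hth : Δ.Thick) {a b : G} (hab : Good p a b)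
    {i j k : I} (hij : M i j = 3) (hjk : M j k = 3) (hik : M i k = 2) {u : W}
    (hi : cs.simple i * u = u * cs.simple i) (hj : cs.simple j * u = u * cs.simple j)
    (hk : cs.simple k * u = u * cs.simple k) (hil : ℓ u < ℓ (u * cs.simple i)) (hjl : ℓ u < ℓ (u * cs.simple j))
    (hkl : ℓ u < ℓ (u * cs.simple k)) (hv : u * (cs.simple i * cs.simple k) ∈ Dis Δ a b)
    (hO : RoleO Δ b i (u * (cs.simple i * cs.simple k))) : False := by
  have hkj : M k j = 3 := by rw [M.symmetric]; exact hjk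
  have hji : M j i = 3 := by rw [M.symmetric]; exact hij
  have hki : M k i = 2 := by rw [M.symmetric]; exact hik
  have hik' := ne_of_m2 hik
  have hij' : i ≠ j := (len_jij (cs := cs) hij).2.2.2
  have hjk' : j ≠ k := (len_jij (cs := cs) hjk).2.2.2
  have hss : ∀ k, cs.simple k * cs.simple k = 1 := cs.simple_mul_simple_self
  have hcik := comm_of_m2 (cs := cs) hik
  have A := a3_facts (cs := cs) hij hjk hik
  have A' := a3_facts (cs := cs) hkj hji hki
  -- the type
  set K : Set I := {i, j, k} with hK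
  have hiK : i ∈ K := by simp [hK]
  have hjK : j ∈ K := by simp [hK]
  have hkK : k ∈ K := by simp [hK]
  have hcmK : ∀ l ∈ K, cs.simple l * u = u * cs.simple l := by
    rintro l (rfl | rfl | rfl)
    · exact hi
    · exact hj
    · exact hk
  have h : Par cs K K u := par_of_comm hcmK (by
    rintro l (rfl | rfl | rfl)
    · exact hil
    · exact hjl
    · exact hkl)
  have hmi : cs.simple i ∈ WJ cs K := simple_mem_WJ cs hiK
  have hmj : cs.simple j ∈ WJ cs K := simple_mem_WJ cs hjK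
  have hmk : cs.simple k ∈ WJ cs K := simple_mem_WJ cs hkK
  have hcm : ∀ w ∈ WJ cs K, w * u = u * w := fun w hw => comm_of_mem hcmK hw
  have hl : ∀ w ∈ WJ cs K, ℓ (u * w) = ℓ u + ℓ w := h.minR
  obtain ⟨v, hvdef⟩ : ∃ v, v = u * (cs.simple i * cs.simple k) := ⟨_, rfl⟩
  rw [← hvdef] at hv hO
  have lv : ℓ v = ℓ u + 2 := by rw [hvdef, hl _ (mul_mem hmi hmk), A.l2]
  have hvi : v * cs.simple i = u * cs.simple k := by
    rw [hvdef, hcik, mul_assoc, mul_assoc, hss, mul_one]
  have hvk : v * cs.simple k = u * cs.simple i := by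
    rw [hvdef, mul_assoc, mul_assoc, hss, mul_one]
  have lui : ℓ (u * cs.simple i) = ℓ u + 1 := by rw [hl _ hmi, cs.length_simple]
  have luk : ℓ (u * cs.simple k) = ℓ u + 1 := by rw [hl _ hmk, cs.length_simple]
  -- `v` and `j`
  have ejv : cs.simple j * v = u * (cs.simple j * (cs.simple i * cs.simple k)) := by
    rw [hvdef, ← mul_assoc, hj, mul_assoc]
  have evj : v * cs.simple j = u * (cs.simple i * cs.simple k * cs.simple j) := by rw [hvdef, mul_assoc]
  have N1L : ℓ v < ℓ (cs.simple j * v) := by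
    rw [ejv, hl _ (mul_mem hmj (mul_mem hmi hmk)), A.l3L]; omega
  have N1R : ℓ v < ℓ (v * cs.simple j) := by
    rw [evj, hl _ (mul_mem (mul_mem hmi hmk) hmj), A.l3R]; omega
  have N1 : cs.simple j * v ≠ v * cs.simple j := by
    intro h1
    rw [ejv, evj] at h1
    have h2 := mul_left_cancel h1
    have h3 := A.l4
    rw [h2, mul_assoc, hss, mul_one, A.l2] at h3
    omega
  -- `v1 = j v j`
  obtain ⟨w4, hw4⟩ : ∃ w4, w4 = cs.simple j * (cs.simple i * cs.simple k) * cs.simple j := ⟨_, rfl⟩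
  have hw4m : w4 ∈ WJ cs K := by rw [hw4]; exact mul_mem (mul_mem hmj (mul_mem hmi hmk)) hmj
  have hw4' : w4 = cs.simple j * (cs.simple k * cs.simple i) * cs.simple j := by rw [hw4, hcik]
  have ev1 : cs.simple j * v * cs.simple j = u * w4 := by rw [ejv, mul_assoc u, hw4]
  have sw : cs.simple i * w4 = w4 * cs.simple k := by rw [hw4]; exact A.sw
  have sw' : cs.simple k * w4 = w4 * cs.simple i := by rw [hw4']; exact A'.sw
  have N2L : ℓ (u * w4) < ℓ (cs.simple i * (u * w4)) := by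
    rw [← mul_assoc, hi, mul_assoc, hl _ hw4m, hl _ (mul_mem hmi hw4m), hw4, A.l4, A.l5L]; omega
  have N2R : ℓ (u * w4) < ℓ (u * w4 * cs.simple i) := by
    rw [mul_assoc, hl _ hw4m, hl _ (mul_mem hw4m hmi), hw4, A.l4, A.l5R]; omega
  have N2 : cs.simple i * (u * w4) ≠ u * w4 * cs.simple i := by
    rw [← mul_assoc, hi, mul_assoc, mul_assoc]
    intro h1
    have h2 := mul_left_cancel h1
    rw [sw] at h2
    exact hik' (F.inj (mul_left_cancel h2)).symm
  have N3L : ℓ (u * w4) < ℓ (cs.simple k * (u * w4)) := by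
    rw [← mul_assoc, hk, mul_assoc, hl _ hw4m, hl _ (mul_mem hmk hw4m), hw4', A'.l4, A'.l5L]; omega
  have N3R : ℓ (u * w4) < ℓ (u * w4 * cs.simple k) := by
    rw [mul_assoc, hl _ hw4m, hl _ (mul_mem hw4m hmk), hw4', A'.l4, A'.l5R]; omega
  have N3 : cs.simple k * (u * w4) ≠ u * w4 * cs.simple k := by
    rw [← mul_assoc, hk, mul_assoc, mul_assoc]
    intro h1
    have h2 := mul_left_cancel h1
    rw [sw'] at h2
    exact hik' (F.inj (mul_left_cancel h2))
  have N4 : cs.simple i * (u * w4) * cs.simple i = cs.simple k * (u * w4) * cs.simple k := by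
    calc cs.simple i * (u * w4) * cs.simple i
        = (cs.simple i * u) * (w4 * cs.simple i) := by group
      _ = (u * cs.simple i) * (w4 * cs.simple i) := by rw [hi]
      _ = u * (cs.simple i * w4) * cs.simple i := by group
      _ = u * (w4 * cs.simple k) * cs.simple i := by rw [sw]
      _ = u * w4 * (cs.simple k * cs.simple i) := by group
      _ = u * w4 * (cs.simple i * cs.simple k) := by rw [hcik]
      _ = u * (w4 * cs.simple i) * cs.simple k := by group
      _ = u * (cs.simple k * w4) * cs.simple k := by rw [sw']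
      _ = (u * cs.simple k) * w4 * cs.simple k := by group
      _ = (cs.simple k * u) * w4 * cs.simple k := by rw [hk]
      _ = cs.simple k * (u * w4) * cs.simple k := by group
  have hv1 : u * w4 ∈ Dis Δ a b := by
    rw [← ev1]
    exact (dis_simple S hth hab hv N1).1
  have Y1 : ∀ c, Δ.δ c (b • c) ≠ v * cs.simple j := fun c => (strongY S hth hab hv N1 c).2
  have Y3 : ∀ c, Δ.δ c (b • c) ≠ u * w4 * cs.simple k := fun c => (strongY S hth hab hv1 N3 c).2
  have hvv : v * cs.simple i ≠ v := by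
    intro h1
    have h2 := congrArg cs.length h1
    rw [hvi, luk, lv] at h2
    omega
  -- the path
  obtain ⟨⟨cA, hcA⟩, c2, hc2⟩ := id hv
  obtain ⟨c1, ⟨hc1, hc1'⟩, -⟩ := hO c2 (Or.inl hc2)
  have e12 : Δ.δ c1 c2 = cs.simple i := by
    refine Δ.δ_eq_of_mem_Pan hc1 (Δ.self_mem_Pan i c2) ?_
    rintro rfl
    exact hvv (by rw [← hc1', hc2])
  obtain ⟨c3, e23⟩ := Δ.exists_δ c2 (cs.simple j)
  have hc3 := step_up S N1 N1L N1R hc2 e23
  rw [ev1] at hc3
  obtain ⟨c4, e34⟩ := Δ.exists_δ c3 (cs.simple i)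
  have hc4 := step_up S N2 N2L N2R hc3 e34
  rw [N4] at hc4
  obtain ⟨c5, e45, hc5⟩ := step_down S N3 N3L N3R Y3 hc4
  rw [← ev1] at hc5
  obtain ⟨c6, e56, hc6⟩ := step_down S N1 N1L N1R Y1 hc5
  obtain ⟨c7, ⟨hc7, hc7'⟩, -⟩ := hO c6 (Or.inl hc6)
  have e67 : Δ.δ c6 c7 = cs.simple i := by
    refine Δ.δ_eq_of_mem_Pan (Δ.self_mem_Pan i c6) hc7 ?_
    rintro rfl
    exact hvv (by rw [← hc7', hc6])
  obtain ⟨e1, e2, e3, g1, g2, g3, g4⟩ := hom6 hij hjk hik e12 e23 e34 e45 e56 e67
  -- the position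
  have hpos : Δ.δ c1 (b • c1) = u * cs.simple k := by rw [hc1', hvi]
  obtain ⟨c', hcc, hc'⟩ := Δ.exists_between hpos (by rw [luk, cs.length_simple])
  have hbx : b • c1 ∈ Δ.Res K c' := by rw [Bldg.mem_Res, hc']; exact hmk
  set ψ : C → C := psi Δ K c1 b with hψ
  have hc1R : c1 ∈ Δ.Res K c1 := Δ.self_mem_Res _ _
  have P : ∀ {l : I} {D E : C}, l ∈ K → D ∈ Δ.Res K c1 → Δ.δ D E = cs.simple l → E ∈ Δ.Res K c1 :=
    fun hl hD hE => Δ.mem_Res_trans hD (Δ.Pan_subset_Res hl _ (Δ.mem_Pan_of_δ hE))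
  have hc7R : c7 ∈ Δ.Res K c1 :=
    P hiK (P hjK (P hkK (P hiK (P hjK (P hiK hc1R e12) e23) e34) e45) e56) e67
  have he1R : e1 ∈ Δ.Res K c1 := P hkK hc1R g1
  have he2R : e2 ∈ Δ.Res K c1 := P hjK he1R g2
  have he3R : e3 ∈ Δ.Res K c1 := P hiK he2R g3
  have hiso : ∀ D ∈ Δ.Res K c1, ∀ E ∈ Δ.Res K c1, Δ.δ (ψ D) (ψ E) = Δ.δ D E := by
    intro D hD E hE
    have h1 := psi_iso S h hcc hbx hD hE
    rw [← hcm _ (Δ.δ_mem_of_mem_Res hD hE)] at h1
    exact mul_right_cancel h1
  have hdisp : ∀ D ∈ Δ.Res K c1, Δ.δ D (b • D) = Δ.δ D (ψ D) * u := fun D hD => disp_eq S h hcc hbx hD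
  have hψ1 : Δ.δ c1 (ψ c1) = cs.simple k := by
    have h1 := hdisp c1 hc1R
    rw [hpos, ← hk] at h1
    exact (mul_right_cancel h1).symm
  have hψ7 : Δ.δ c7 (ψ c7) = cs.simple k := by
    have h1 := hdisp c7 hc7R
    rw [hc7', hvi, ← hk] at h1
    exact (mul_right_cancel h1).symm
  -- the points `P` and `Z`
  have hkey : ∀ {D E : C}, D ∈ Δ.Res K c1 → E ∈ Δ.Res K c1 → Δ.δ D (ψ D) = cs.simple k → E ∈ Δ.Res {j, k} D →
      Δ.δ E (ψ E) ∈ WJ cs ({j, k} : Set I) := by
    intro D E hD hE hDψ hED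
    have h1 : ψ D ∈ Δ.Res {j, k} D := Δ.Pan_subset_Res (by simp) _ (Δ.mem_Pan_of_δ hDψ)
    have h2 : ψ E ∈ Δ.Res {j, k} (ψ D) := by
      rw [Bldg.mem_Res, hiso D hD E hE]
      exact hED
    exact Δ.δ_mem_of_mem_Res hED (Δ.mem_Res_trans h1 h2)
  have he2jk : e2 ∈ Δ.Res {j, k} c1 :=
    Δ.mem_Res_trans (Δ.Pan_subset_Res (by simp) _ (Δ.mem_Pan_of_δ g1))
      (Δ.Pan_subset_Res (by simp) _ (Δ.mem_Pan_of_δ g2))
  have hw : Δ.δ e2 (ψ e2) ∈ WJ cs ({j, k} : Set I) := hkey hc1R he2R hψ1 he2jk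
  have hw' : Δ.δ e3 (ψ e3) ∈ WJ cs ({j, k} : Set I) := hkey hc7R he3R hψ7 g4
  have hi_jk : i ∉ ({j, k} : Set I) := by
    rintro (h1 | h1)
    · exact hij' h1
    · exact hik' (Set.mem_singleton_iff.1 h1)
  obtain ⟨w, hwdef⟩ : ∃ w, w = Δ.δ e2 (ψ e2) := ⟨_, rfl⟩
  obtain ⟨w', hwdef'⟩ : ∃ w', w' = Δ.δ e3 (ψ e3) := ⟨_, rfl⟩
  rw [← hwdef] at hw
  rw [← hwdef'] at hw'
  have lw := len_mul_of_mem hw hi_jk
  have lw2 := len_mul_of_mem' hw hi_jk
  have lw' := len_mul_of_mem' hw' hi_jk
  have q1 : Δ.δ e2 (ψ e3) = cs.simple i * w' := Δ.δ_mul_of g3 hwdef'.symm (by rw [lw', cs.length_simple]; omega)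
  have q2 : Δ.δ e2 (ψ e3) = w * cs.simple i :=
    Δ.δ_mul_of hwdef.symm (by rw [hiso e2 he2R e3 he3R, g3]) (by rw [lw, cs.length_simple])
  have q3 : cs.simple i * w' = w * cs.simple i := by rw [← q1, q2]
  have q4 : cs.simple i * w = w * cs.simple i := by
    rcases fold cs (w := w) (i := i) (j := i) lw2 lw with h1 | h1
    · exfalso
      rw [mul_assoc, ← q3, ← mul_assoc, hss, one_mul] at h1
      rw [q3] at lw'
      omega
    · exact h1
  have q5 : w' = w := mul_left_cancel (q3.trans q4.symm)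
  have hw01 : w = 1 ∨ w = cs.simple k := by
    have hne := ne_ij_ji (cs := cs) hij
    rcases cases6 S hjk hw with (h1 | h1 | h1) | (h1 | h1 | h1)
    · left; exact h1
    · exfalso
      rw [h1] at q4
      exact hne q4
    · exfalso
      rw [h1] at q4
      apply hne
      have h2 : cs.simple i * cs.simple j * cs.simple k = cs.simple j * cs.simple i * cs.simple k := by
        rw [mul_assoc, q4, mul_assoc, ← hcik, ← mul_assoc]
      exact mul_right_cancel h2
    · right; exact h1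
    · exfalso
      rw [h1] at q4
      apply hne
      have h2 : cs.simple k * (cs.simple i * cs.simple j) = cs.simple k * (cs.simple j * cs.simple i) := by
        rw [← mul_assoc, ← hcik, mul_assoc, q4, mul_assoc]
      exact mul_left_cancel h2
    · exfalso
      rw [h1] at q4
      apply hne
      have h2 : cs.simple k * (cs.simple i * cs.simple j) * cs.simple k =
          cs.simple k * (cs.simple j * cs.simple i) * cs.simple k := by
        calc cs.simple k * (cs.simple i * cs.simple j) * cs.simple k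
            = (cs.simple k * cs.simple i) * (cs.simple j * cs.simple k) := by group
          _ = (cs.simple i * cs.simple k) * (cs.simple j * cs.simple k) := by rw [hcik]
          _ = cs.simple i * (cs.simple k * (cs.simple j * cs.simple k)) := by group
          _ = cs.simple k * (cs.simple j * cs.simple k) * cs.simple i := q4
          _ = cs.simple k * cs.simple j * (cs.simple k * cs.simple i) := by group
          _ = cs.simple k * cs.simple j * (cs.simple i * cs.simple k) := by rw [hcik]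
          _ = _ := by group
      exact mul_left_cancel (mul_right_cancel h2)
  have hd2 : Δ.δ e2 (b • e2) = w * u := by rw [hdisp e2 he2R, ← hwdef]
  have hd3 : Δ.δ e3 (b • e3) = w * u := by rw [hdisp e3 he3R, ← hwdef', q5]
  rcases hw01 with hw1 | hwk
  swap
  · -- two chambers of displacement `v s_i` in the panel
    rw [hwk, hk, ← hvi] at hd2 hd3
    obtain ⟨D, -, hD⟩ := hO e2 (Or.inr hd2)
    have h1 := hD e2 ⟨Δ.self_mem_Pan _ _, hd2⟩
    have h2 := hD e3 ⟨Δ.mem_Pan_of_δ g3, hd3⟩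
    exact Δ.ne_of_δ_simple g3 (h1.trans h2.symm)
  rw [hw1, one_mul] at hd2 hd3
  have hψ2 : ψ e2 = e2 := by
    rw [hw1] at hwdef
    exact (Δ.eq_of_δ_eq_one hwdef.symm).symm
  -- the plane of `e1`
  have hcm2 : cs.simple k * (u * cs.simple k) = u * cs.simple k * cs.simple k := by rw [← mul_assoc, hk]
  have hd1 : Δ.δ e1 (b • e1) = u := by
    rcases step_comm S hcm2 hpos (Δ.mem_Pan_of_δ g1) with h1 | h1
    · exfalso
      have h2 := hdisp e1 he1R
      rw [h1, ← hk] at h2
      have h3 : Δ.δ e1 (ψ e1) = cs.simple k := (mul_right_cancel h2).symm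
      have h4 : Δ.δ (ψ e1) e2 = cs.simple j := by
        have h5 := hiso e1 he1R e2 he2R
        rwa [hψ2, g2] at h5
      have h5 : ψ e1 ∈ Δ.Pan j e1 :=
        Δ.mem_Pan_trans (Δ.mem_Pan_of_δ g2) (Δ.mem_Pan_of_δ (Δ.δ_symm_simple h4))
      rcases h5 with h5 | h5
      · exact Δ.ne_of_δ_simple h3 h5.symm
      · rw [h3] at h5
        exact hjk' (F.inj h5).symm
    · rw [h1, mul_assoc, hss, mul_one]
  -- a chamber of displacement `v s_k`
  obtain ⟨f, hf1, hf2⟩ := hom2 hki (Δ.δ_symm_simple g1) e12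
  have hcvk : cs.simple k * v = v * cs.simple k := by
    rw [hvdef, ← mul_assoc, hk, mul_assoc, ← mul_assoc (cs.simple k), ← hcik, mul_assoc u]
  have hdf : Δ.δ f (b • f) = v * cs.simple k := by
    rcases step_comm S hcvk hc2 (Δ.mem_Pan_of_δ (Δ.δ_symm_simple hf2)) with h1 | h1
    · exfalso
      rcases step_comm S hi hd1 (Δ.mem_Pan_of_δ hf1) with h2 | h2
      · rw [h1] at h2
        have := congrArg cs.length h2
        omega
      · rw [h1] at h2
        have := congrArg cs.length h2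
        omega
    · exact h1
  have hvkD : v * cs.simple k ∉ Dis Δ a b := by
    rw [hvk]
    exact star_d S hth hab hij hi hj hil hjl
  have hE : RoleE Δ a⁻¹ k v := by
    rcases roles S hth hab (i := k) hv hcvk (by rw [hvk]; omega) hvkD with h1 | h1
    · exact h1.1
    · exact absurd hdf (h1.2 f)
  -- all chambers of the `k`-panel of `e2` have displacement `u`
  have hall : ∀ E ∈ Δ.Pan k e2, Δ.δ E (b • E) = u := by
    intro E hE1
    rcases step_comm S hk hd2 hE1 with h1 | h1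
    · exact h1
    exfalso
    have hEe : Δ.δ E e2 = cs.simple k := by
      refine Δ.δ_eq_of_mem_Pan hE1 (Δ.self_mem_Pan k e2) ?_
      rintro rfl
      rw [hd2] at h1
      have := congrArg cs.length h1
      omega
    obtain ⟨E3, h2, h3⟩ := hom2 hki hEe g3
    have hcm3 : cs.simple i * (u * cs.simple k) = u * cs.simple k * cs.simple i := by
      rw [← mul_assoc, hi, mul_assoc, mul_assoc, hcik]
    have h4 : Δ.δ E3 (b • E3) = u * cs.simple k := by
      rcases step_comm S hcm3 h1 (Δ.mem_Pan_of_δ h2) with h5 | h5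
      · exact h5
      · exfalso
        have h6 : ℓ (u * cs.simple k * cs.simple i) = ℓ u + 2 := by
          rw [mul_assoc, ← hcik, hl _ (mul_mem hmi hmk), A.l2]
        rcases step_comm S hk hd3 (Δ.mem_Pan_of_δ (Δ.δ_symm_simple h3)) with h7 | h7
        · rw [h5] at h7
          have := congrArg cs.length h7
          omega
        · rw [h5] at h7
          have := congrArg cs.length h7
          omega
    rw [← hvi] at h1 h4
    obtain ⟨D, -, hD⟩ := hO E (Or.inr h1)
    have h7 := hD E ⟨Δ.self_mem_Pan _ _, h1⟩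
    have h8 := hD E3 ⟨Δ.mem_Pan_of_δ h2, h4⟩
    exact Δ.ne_of_δ_simple h2 (h7.trans h8.symm)
  have hΛ : ∀ D ∈ Δ.Res {i, k} e2, Δ.δ D (b • D) = u ∨ Δ.δ D (b • D) = u * cs.simple i := by
    intro D hD
    obtain ⟨E, hE1, hE2⟩ := exists_mid hik hD
    exact step_comm S hi (hall E hE1) hE2
  -- the contradiction on a line of `a`
  rw [hvdef] at hcA
  obtain ⟨c0', hcc0, hc0'⟩ := Δ.exists_between hcA (by rw [hl _ (mul_mem hmi hmk)])
  obtain ⟨g, hg1, hg2⟩ := exists_smul_pair S hth (x := e2) (y := b • e2) (x' := cA) (y' := c0') (by rw [hd2, hcc0])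
  have hz : PE p (a * (g * b * g⁻¹)) := hab g
  have hgi : g⁻¹ • cA = e2 := by rw [inv_smul_eq_iff, hg1]
  have hzc : (a * (g * b * g⁻¹)) • cA ∈ Δ.Res {i, k} cA := by
    rw [mul_smul, mul_smul, mul_smul, hgi, hg2]
    have h1 : c0' ∈ Δ.Res {i, k} (a⁻¹ • cA) := by
      apply Δ.mem_Res_symm
      rw [Bldg.mem_Res, hc0']
      exact mul_mem (simple_mem_WJ cs (by simp)) (simple_mem_WJ cs (by simp))
    have h2 := S.smul_mem_Res (g := a) h1
    rwa [smul_inv_smul] at h2
  obtain ⟨y, hy, hzy⟩ := exists_fixed_res S hz hzc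
  have hby : (g * b * g⁻¹) • y = a⁻¹ • y := by rw [eq_inv_smul_iff, ← mul_smul, hzy]
  have hgy : g⁻¹ • y ∈ Δ.Res {i, k} e2 := by
    rw [← hgi]
    exact S.smul_mem_Res hy
  have hdy : Δ.δ y (a⁻¹ • y) = Δ.δ (g⁻¹ • y) (b • g⁻¹ • y) := by
    rw [← hby, mul_smul, mul_smul, ← S.iso g (g⁻¹ • y), smul_inv_smul]
  have hdy' : Δ.δ y (a⁻¹ • y) = u ∨ Δ.δ y (a⁻¹ • y) = u * cs.simple i := by
    rw [hdy]
    exact hΛ _ hgy
  obtain ⟨E, hE1, hE2⟩ := exists_mid hik hy
  have hEy : y ∈ Δ.Pan i E := hE2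
  have hEy' : E ∈ Δ.Pan i y := Δ.mem_Pan_symm hE2
  have h5 : Δ.δ E (a⁻¹ • E) = u ∨ Δ.δ E (a⁻¹ • E) = u * cs.simple i := by
    rcases hdy' with h6 | h6
    · exact step_comm S hi h6 hEy'
    · have hcm4 : cs.simple i * (u * cs.simple i) = u * cs.simple i * cs.simple i := by rw [← mul_assoc, hi]
      rcases step_comm S hcm4 h6 hEy' with h7 | h7
      · right; exact h7
      · left; rw [h7, mul_assoc, hss, mul_one]
  rw [← hvdef] at hcA
  rcases step_comm S hcvk hcA hE1 with h6 | h6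
  · rcases h5 with h7 | h7
    · rw [h6] at h7
      have := congrArg cs.length h7
      omega
    · rw [h6] at h7
      have := congrArg cs.length h7
      omega
  · exact hE E h6

/-- **The `A₃`-star.** -/
theorem star_e [hp : Fact p.Prime] [F : OppRes.Cox cs] [Finite C] (hth : Δ.Thick) {a b : G} (hab : Good p a b)
    {i j k : I} (hij : M i j = 3) (hjk : M j k = 3) (hik : M i k = 2) {u : W}
    (hi : cs.simple i * u = u * cs.simple i) (hj : cs.simple j * u = u * cs.simple j)
    (hk : cs.simple k * u = u * cs.simple k) (hil : ℓ u < ℓ (u * cs.simple i)) (hjl : ℓ u < ℓ (u * cs.simple j))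
    (hkl : ℓ u < ℓ (u * cs.simple k)) : u * (cs.simple i * cs.simple k) ∉ Dis Δ a b := by
  intro hv
  have hkj : M k j = 3 := by rw [M.symmetric]; exact hjk
  have hcik := comm_of_m2 (cs := cs) hik
  have hss : ∀ k, cs.simple k * cs.simple k = 1 := cs.simple_mul_simple_self
  have hvi : u * (cs.simple i * cs.simple k) * cs.simple i = u * cs.simple k := by
    rw [hcik, mul_assoc, mul_assoc, hss, mul_one]
  have hcvi : cs.simple i * (u * (cs.simple i * cs.simple k)) = u * (cs.simple i * cs.simple k) * cs.simple i := by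
    rw [hvi, ← mul_assoc, hi, mul_assoc, ← mul_assoc (cs.simple i), hss, one_mul]
  have hlen : ℓ (u * (cs.simple i * cs.simple k) * cs.simple i) < ℓ (u * (cs.simple i * cs.simple k)) := by
    rw [hvi]
    have hR : IsMinR cs ({i, k} : Set I) u := (isMinR_iff cs).2 (by
      rintro l (rfl | rfl)
      · exact hil
      · exact hkl)
    rw [hR _ (mul_mem (simple_mem_WJ cs (by simp)) (simple_mem_WJ cs (by simp))), len_m2 hik,
      hR _ (simple_mem_WJ cs (by simp)), cs.length_simple]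
    omega
  have hnot : u * (cs.simple i * cs.simple k) * cs.simple i ∉ Dis Δ a b := by
    rw [hvi]
    exact star_d S hth hab hkj hk hj hkl hjl
  rcases roles S hth hab hv hcvi hlen hnot with h1 | h1
  · exact star_e_aux S hth hab hij hjk hik hi hj hk hil hjl hkl hv h1.2
  · exact star_e_aux S hth hab.inv hij hjk hik hi hj hk hil hjl hkl (by rw [dis_inv]; exact hv) h1.1

end Cfsg.Agent.H772.Cls
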